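import Cfsg.Agent.FusE.Crit2

/-! Sylow `p`-subgroups of symmetric groups: block-affine permutations `aff σ t c` of `(β × ZMod p) ⊕ γ`, the
recognition lemma `exists_isAff`, the Sylow subgroup `Wp S₀` (`sylIn_Wp`), generation by elements of order `p`
(`om_perm`). -/

set_option autoImplicit false
set_option linter.unusedSectionVars false

namespace Cfsg.Agent.FusE

open Subgroup Cfsg Cfsg.Agent.Loc Cfsg.Agent.Fus Equiv Sum

variable {p : ℕ} [Fact p.Prime] {β γ : Type} [Fintype β] [DecidableEq β] [Fintype γ] [DecidableEq γ]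

attribute [-simp] ZMod.inv_coe_unit

/-- The points: blocks of size `p` and further points. -/
abbrev Pt (p : ℕ) (β γ : Type) : Type := (β × ZMod p) ⊕ γ

/-- Block-affine permutations. -/
def aff (γ : Type) (σ : Perm β) (t : β → (ZMod p)ˣ) (c : β → ZMod p) : Perm (Pt p β γ) :=
  Perm.sumCongr ⟨fun x => (σ x.1, t x.1 * x.2 + c x.1),
    fun x => (σ⁻¹ x.1, (t (σ⁻¹ x.1))⁻¹ * (x.2 - c (σ⁻¹ x.1))), fun x => by simp, fun x => by simp⟩ 1

@[simp] theorem aff_inl (σ : Perm β) (t : β → (ZMod p)ˣ) (c : β → ZMod p) (b : β) (y : ZMod p) :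
    aff γ σ t c (inl (b, y)) = inl (σ b, t b * y + c b) := rfl

@[simp] theorem aff_inr (σ : Perm β) (t : β → (ZMod p)ˣ) (c : β → ZMod p) (z : γ) :
    aff γ σ t c (inr z) = inr z := rfl

theorem pt_ext {g h : Perm (Pt p β γ)} (h1 : ∀ b y, g (inl (b, y)) = h (inl (b, y))) (h2 : ∀ z, g (inr z) = h (inr z)) :
    g = h := Equiv.ext (by rintro (⟨b, y⟩ | z); exacts [h1 b y, h2 z])

theorem aff_mul (σ σ' : Perm β) (t t' : β → (ZMod p)ˣ) (c c' : β → ZMod p) : aff γ σ t c * aff γ σ' t' c' =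
    aff γ (σ * σ') (fun b => t (σ' b) * t' b) fun b => t (σ' b) * c' b + c (σ' b) :=
  pt_ext (fun b y => by simp; ring) fun _ => rfl

theorem aff_one : aff γ 1 (1 : β → (ZMod p)ˣ) 0 = 1 := pt_ext (fun b y => by simp) fun _ => rfl

variable (γ) in
/-- Translations in the blocks. -/
def tr : Multiplicative (β → ZMod p) →* Perm (Pt p β γ) where
  toFun c := aff γ 1 1 c.toAdd
  map_one' := aff_one
  map_mul' _ _ := pt_ext (fun b y => by simp; ring) fun _ => rfl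

variable (γ) in
/-- Multiplications in the blocks. -/
def dg : (β → (ZMod p)ˣ) →* Perm (Pt p β γ) where
  toFun t := aff γ 1 t 0
  map_one' := aff_one
  map_mul' _ _ := pt_ext (fun b y => by simp [mul_assoc]) fun _ => rfl

variable (p γ) in
/-- Permutations of the blocks. -/
def hat : Perm β →* Perm (Pt p β γ) where
  toFun σ := aff γ σ 1 0
  map_one' := aff_one
  map_mul' _ _ := pt_ext (fun b y => by simp) fun _ => rfl

theorem tr_apply (c : β → ZMod p) : tr γ (.ofAdd c) = aff γ 1 1 c := rfl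
theorem dg_apply (t : β → (ZMod p)ˣ) : dg γ t = aff γ 1 t 0 := rfl
theorem hat_apply (σ : Perm β) : hat p γ σ = aff γ σ 1 0 := rfl

theorem tr_pow (c : β → ZMod p) : aff γ 1 1 c ^ p = 1 := by
  rw [← tr_apply, ← map_pow, ← ofAdd_nsmul, ← Nat.cast_smul_eq_nsmul (ZMod p), ZMod.natCast_self, zero_smul]
  exact map_one _

theorem sign_hat (σ : Perm β) : Perm.sign (hat p γ σ) = Perm.sign σ ^ p := by
  have : hat p γ σ = Perm.sumCongr (prodCongrLeft fun _ => σ) 1 := pt_ext (fun b y => by simp [hat_apply]) fun _ => rfl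
  rw [this, Perm.sign_sumCongr, Perm.sign_prodCongrLeft]; simp

theorem sign_tr (c : β → ZMod p) : Perm.sign (aff γ 1 1 c) = ∏ b, Perm.sign (Equiv.addRight (c b)) := by
  have : aff γ 1 1 c = Perm.sumCongr (prodCongrRight fun b => Equiv.addRight (c b)) 1 :=
    pt_ext (fun b y => by simp) fun _ => rfl
  rw [this, Perm.sign_sumCongr, Perm.sign_prodCongrRight]; simp

/-- `g` acts on the blocks as `aff σ t c`. -/
def IsAff (g : Perm (Pt p β γ)) (σ : Perm β) (t : β → (ZMod p)ˣ) (c : β → ZMod p) : Prop :=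
  ∀ b y, g (inl (b, y)) = inl (σ b, t b * y + c b)

theorem isAff_aff (σ : Perm β) (t : β → (ZMod p)ˣ) (c : β → ZMod p) : IsAff (aff γ σ t c) σ t c := fun _ _ => rfl

namespace IsAff
variable {g g' : Perm (Pt p β γ)} {σ σ' : Perm β} {t t' : β → (ZMod p)ˣ} {c c' : β → ZMod p}

theorem mul (h : IsAff g σ t c) (h' : IsAff g' σ' t' c') :
    IsAff (g * g') (σ * σ') (fun b => t (σ' b) * t' b) fun b => t (σ' b) * c' b + c (σ' b) := fun b y => by
  rw [Perm.mul_apply, h', h]; simp; ring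

theorem inv (h : IsAff g σ t c) : IsAff g⁻¹ σ⁻¹ (fun b => (t (σ⁻¹ b))⁻¹) fun b => -((t (σ⁻¹ b))⁻¹ * c (σ⁻¹ b)) :=
  fun b y => by rw [Perm.inv_eq_iff_eq, h]; simp [mul_add]

theorem pow (h : IsAff g σ t c) (n : ℕ) : ∃ t' c', IsAff (g ^ n) (σ ^ n) t' c' ∧ ∀ b, σ b = b → t' b = t b ^ n := by
  induction n with
  | zero => exact ⟨1, 0, fun b y => by simp, fun _ _ => by simp⟩
  | succ n ih =>
    obtain ⟨t', c', h1, h2⟩ := ih
    exact ⟨_, _, by rw [pow_succ, pow_succ]; exact h1.mul h, fun b hb => by rw [hb, h2 b hb, pow_succ]⟩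

theorem of_one (h : IsAff (1 : Perm (Pt p β γ)) σ t c) : σ = 1 ∧ t = 1 := by
  refine ⟨Equiv.ext fun b => ?_, funext fun b => Units.ext ?_⟩
  · exact (Prod.ext_iff.1 (inl_injective (h b 0))).1.symm
  · have h0 := (Prod.ext_iff.1 (inl_injective (h b 0))).2
    have h1 := (Prod.ext_iff.1 (inl_injective (h b 1))).2
    simp only [mul_zero, zero_add, mul_one] at h0 h1
    simp [h1, ← h0]

theorem pow_eq (h : IsAff g σ t c) {k : ℕ} (hk : g ^ p ^ k = 1) : σ ^ p ^ k = 1 ∧ ∀ b, σ b = b → t b = 1 := by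
  obtain ⟨t', c', h1, h2⟩ := h.pow (p ^ k)
  rw [hk] at h1
  refine ⟨h1.of_one.1, fun b hb => Units.ext ?_⟩
  have := congrArg Units.val (h2 b hb)
  rwa [h1.of_one.2, Units.val_pow_eq_pow_val, ZMod.pow_card_pow, eq_comm] at this

theorem inr (h : IsAff g σ t c) (z : γ) : ∃ z', g (inr z) = inr z' := by
  rcases e : g (Sum.inr z) with ⟨b, y⟩ | z'
  · exact absurd ((Perm.eq_inv_iff_eq.2 e).trans (h.inv b y)) (by simp)
  · exact ⟨z', rfl⟩

theorem fix_inr (h : IsAff g σ t c) (hγ : Fintype.card γ < p) {k : ℕ} (hk : g ^ p ^ k = 1) (z : γ) :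
    g (Sum.inr z) = Sum.inr z := by
  obtain ⟨n, hn⟩ := (isPGroup_zpowers_of_pow hk).card_orbit (Sum.inr z : Pt p β γ)
  have h1 : MulAction.orbit (zpowers g) (Sum.inr z : Pt p β γ) ⊆ Set.range Sum.inr := by
    rintro _ ⟨⟨u, hu⟩, rfl⟩
    obtain ⟨m, rfl⟩ := mem_powers_iff_mem_zpowers.2 hu
    obtain ⟨_, _, h1, -⟩ := h.pow m
    exact (h1.inr z).imp fun _ => Eq.symm
  have h2 := Nat.card_mono (Set.toFinite _) h1
  rw [Nat.card_range_of_injective inr_injective, hn, Nat.card_eq_fintype_card] at h2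
  obtain rfl : n = 0 := by
    by_contra h0; exact absurd (h2.trans_lt hγ) (not_lt.2 (Nat.le_self_pow h0 p))
  exact congrArg Subtype.val ((Nat.card_eq_one_iff_unique.1 hn).1.elim
    ⟨_, MulAction.mem_orbit _ (⟨g, mem_zpowers g⟩ : zpowers g)⟩ ⟨_, MulAction.mem_orbit_self _⟩)

theorem eq_aff (h : IsAff g σ t c) (h' : ∀ z, g (Sum.inr z) = Sum.inr z) : g = aff γ σ t c := pt_ext h h'

theorem conj (h : IsAff g σ t c) (f : β → ZMod p) :
    g * aff γ 1 1 f * g⁻¹ = aff γ 1 1 fun b => (t (σ⁻¹ b) : ZMod p) * f (σ⁻¹ b) :=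
  pt_ext (fun b y => by rw [(h.mul (isAff_aff 1 1 f)).mul h.inv]; simp [mul_add]) fun z => by
    obtain ⟨z', e⟩ := h.inv.inr z
    rw [Perm.mul_apply, Perm.mul_apply, e, aff_inr, ← e]; simp

end IsAff

variable (p β γ) in
/-- The block-affine permutations. -/
def Wr : Subgroup (Perm (Pt p β γ)) where
  carrier := {g | ∃ σ t c, IsAff g σ t c}
  one_mem' := ⟨1, 1, 0, fun b y => by simp⟩
  mul_mem' := fun ⟨_, _, _, h⟩ ⟨_, _, _, h'⟩ => ⟨_, _, _, h.mul h'⟩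
  inv_mem' := fun ⟨_, _, _, h⟩ => ⟨_, _, _, h.inv⟩

theorem zmod_ind {P : ZMod p → Prop} (h0 : P 0) (h : ∀ y, P y → P (y + 1)) (y : ZMod p) : P y := by
  obtain ⟨n, rfl⟩ := ZMod.natCast_zmod_surjective y
  induction n with
  | zero => simpa
  | succ n ih => simpa using h _ ih

theorem mem_Wr (hγ : Fintype.card γ < p) {g : Perm (Pt p β γ)} (h : ∀ b, ∃ x ∈ Wr p β γ, ∃ x' ∈ Wr p β γ,
    x ^ p = 1 ∧ (∀ y, x (g (inl (b, y))) = g (inl (b, y + 1)) ∧ x' (g (inl (b, y))) = g (inl (b, y + 1))) ∧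
      ∀ w, x w ≠ w → x' w ≠ w → ∃ y, g (inl (b, y)) = w) : g ∈ Wr p β γ := by
  have key : ∀ b, ∃ (s : β) (t : (ZMod p)ˣ) (c : ZMod p), ∀ y, g (inl (b, y)) = inl (s, t * y + c) := fun b => by
    obtain ⟨x, ⟨σ, t, c, hx⟩, x', ⟨σ', t', c', hx'⟩, hp, h1, h2⟩ := h b
    replace hp : x ^ p ^ 1 = 1 := by rwa [pow_one]
    have h3 : ∀ y, ∃ u v, g (inl (b, y)) = inl (u, v) := fun y => by
      rcases e : g (inl (b, y)) with ⟨u, v⟩ | z
      · exact ⟨u, v, rfl⟩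
      · have := (h1 y).1
        rw [e, hx.fix_inr hγ hp, ← e] at this
        simp at this
    choose φ ψ h3 using h3
    have h4 : ∀ y, σ (φ y) = φ (y + 1) ∧ t (φ y) * ψ y + c (φ y) = ψ (y + 1) := fun y => by
      have := (h1 y).1
      rw [h3, h3, hx] at this; simpa using this
    have h5 : ∀ y, φ (y + 1) = φ y := fun y => by_contra fun hne => by
      have h5 : σ' (φ y) = φ (y + 1) := by
        have := (h1 y).2
        rw [h3, h3, hx'] at this; simpa using congrArg (Sum.map Prod.fst id) this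
      choose f hf using fun v => h2 (inl (φ y, v)) (by rw [hx, (h4 y).1]; simp [hne]) (by rw [hx', h5]; simp [hne])
      obtain ⟨v, hv⟩ := Finite.surjective_of_injective (f := f) (fun a b e => by
        have := (hf a).symm.trans (e ▸ hf b)
        simpa using this) (y + 1)
      have := hf v
      rw [hv, h3] at this
      exact hne (by simpa using congrArg (Sum.map Prod.fst id) this)
    have h6 : ∀ y, φ y = φ 0 := zmod_ind rfl fun y e => (h5 y).trans e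
    have h7 : ∀ y, ψ y = c (φ 0) * y + ψ 0 := zmod_ind (by simp) fun y e => by
      rw [← (h4 y).2, (hx.pow_eq hp).2 _ ((h4 y).1.trans (h5 y)), h6, e]; simp; ring
    refine ⟨φ 0, Units.mk0 (c (φ 0)) fun e => ?_, ψ 0, fun y => by rw [h3, h6, h7]; rfl⟩
    have := h3 1
    rw [h6, h7, e, zero_mul, zero_add, ← h3] at this
    simp at this
  choose s t c key using key
  refine ⟨Equiv.ofBijective s (Finite.injective_iff_bijective.1 fun a b e => ?_), t, c, key⟩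
  have := key a (((t a)⁻¹ : (ZMod p)ˣ) * (c b - c a))
  rw [e, Units.mul_inv_cancel_left, sub_add_cancel] at this
  have h2 := key b 0
  rw [mul_zero, zero_add, ← this] at h2
  simpa using (congrArg (Sum.map Prod.fst id) (g.injective h2)).symm

theorem tr_move {f : β → ZMod p} {w : Pt p β γ} (h : aff γ 1 1 f w ≠ w) : ∃ b y, f b ≠ 0 ∧ inl (b, y) = w := by
  rcases w with ⟨b, y⟩ | z
  · exact ⟨b, y, by simpa using h, rfl⟩
  · simp at h

theorem mem_Wr' (hγ : Fintype.card γ < p) {g : Perm (Pt p β γ)} (h : ∀ b, ∃ f f' : β → ZMod p,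
    g * aff γ 1 1 f * g⁻¹ ∈ Wr p β γ ∧ g * aff γ 1 1 f' * g⁻¹ ∈ Wr p β γ ∧ f b = 1 ∧ f' b = 1 ∧
      ∀ b', f b' ≠ 0 → f' b' ≠ 0 → b' = b) : g ∈ Wr p β γ := mem_Wr hγ fun b => by
  obtain ⟨f, f', h1, h2, h3, h4, h5⟩ := h b
  refine ⟨_, h1, _, h2, by rw [conj_pow, tr_pow]; simp, fun y => by simp [h3, h4], fun w e e' => ?_⟩
  obtain ⟨w, rfl⟩ := g.surjective w
  obtain ⟨a, y, h6, rfl⟩ := tr_move (f := f) (w := w) (by simpa using e)
  exact ⟨y, by rw [h5 a h6 (by simpa using e')]⟩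

variable (p γ) in
/-- The wreath product of `C_p` with a group of block permutations. -/
def Wp (S : Subgroup (Perm β)) : Subgroup (Perm (Pt p β γ)) where
  carrier := {g | ∃ σ ∈ S, ∃ c, g = aff γ σ 1 c}
  one_mem' := ⟨1, one_mem _, 0, aff_one.symm⟩
  mul_mem' := by
    rintro _ _ ⟨σ, h, c, rfl⟩ ⟨σ', h', c', rfl⟩
    exact ⟨_, mul_mem h h', fun b => c' b + c (σ' b), by rw [aff_mul]; simp; rfl⟩
  inv_mem' := by
    rintro _ ⟨σ, h, c, rfl⟩
    exact ⟨_, inv_mem h, _, (isAff_aff σ 1 c).inv.eq_aff fun z => Perm.inv_eq_iff_eq.2 rfl⟩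

theorem aff_mem_Wp {S : Subgroup (Perm β)} {σ : Perm β} (h : σ ∈ S) (c : β → ZMod p) : aff γ σ 1 c ∈ Wp p γ S :=
  ⟨σ, h, c, rfl⟩

theorem Wp_le (S : Subgroup (Perm β)) : Wp p γ S ≤ Wr p β γ := by
  rintro _ ⟨σ, -, c, rfl⟩; exact ⟨_, _, _, isAff_aff _ _ _⟩

theorem isPGroup_Wp {S : Subgroup (Perm β)} (h : IsPGroup p S) : IsPGroup p (Wp p γ S) := by
  rintro ⟨g, σ, hσ, c, e⟩
  obtain ⟨k, hk⟩ := h ⟨σ, hσ⟩
  obtain ⟨σ', -, c', e'⟩ := pow_mem (aff_mem_Wp (γ := γ) (mem_top σ) c) (p ^ k)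
  obtain ⟨_, _, h1, -⟩ := (isAff_aff (γ := γ) σ 1 c).pow (p ^ k)
  rw [show σ ^ p ^ k = 1 from congrArg Subtype.val hk, e'] at h1
  obtain rfl : σ' = 1 := Equiv.ext fun b => by simpa using congrArg (Sum.map Prod.fst id) (h1 b 0)
  exact ⟨k + 1, Subtype.ext (by rw [pow_succ, pow_mul]; change (g ^ _) ^ p = 1; rw [e, e', tr_pow])⟩

theorem aff_eq (σ : Perm β) (t : β → (ZMod p)ˣ) (c : β → ZMod p) :
    aff γ σ t c = aff γ 1 1 (fun b => c (σ⁻¹ b)) * dg γ (fun b => t (σ⁻¹ b)) * hat p γ σ :=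
  pt_ext (fun b y => by simp [dg_apply, hat_apply]) fun _ => rfl

theorem sylIn_Wp (hγ : Fintype.card γ < p) {S : Subgroup (Perm β)} (h : SylIn p S ⊤) : SylIn p (Wp p γ S) ⊤ := by
  refine ⟨le_top, isPGroup_Wp h.pg, fun Q _ hQ hle => le_antisymm ?_ hle⟩
  have h1 : Q ≤ Wr p β γ := by
    by_contra hc
    obtain ⟨g, hg, hg'⟩ := SetLike.exists_of_lt (lt_inf_normalizer hQ (P := Q ⊓ Wr p β γ)
      (lt_of_le_of_ne inf_le_left fun e => hc (e.ge.trans inf_le_right)))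
    have key : ∀ f, g * aff γ 1 1 f * g⁻¹ ∈ Wr p β γ := fun f => (conj_mem_of_mem_normalizer hg.2
      ⟨hle (aff_mem_Wp (one_mem _) f), Wp_le _ (aff_mem_Wp (mem_top 1) f)⟩).2
    exact hg' ⟨hg.1, mem_Wr' hγ fun b => ⟨Pi.single b 1, Pi.single b 1, key _, key _, by simp, by simp,
      fun b' h _ => by_contra fun e => h (Pi.single_eq_of_ne e _)⟩⟩
  let Q' : Subgroup (Perm β) :=
    { carrier := {σ | ∃ g ∈ Q, ∃ t c, IsAff g σ t c}
      one_mem' := ⟨1, one_mem _, 1, 0, fun b y => by simp⟩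
      mul_mem' := fun ⟨_, h1, _, _, h⟩ ⟨_, h2, _, _, h'⟩ => ⟨_, mul_mem h1 h2, _, _, h.mul h'⟩
      inv_mem' := fun ⟨_, h1, _, _, h⟩ => ⟨_, inv_mem h1, _, _, h.inv⟩ }
  have h2 := h.max Q' le_top (fun ⟨σ, g, hg, t, c, e⟩ => by
    obtain ⟨k, hk⟩ := hQ ⟨g, hg⟩
    exact ⟨k, Subtype.ext (e.pow_eq (congrArg Subtype.val hk)).1⟩)
    fun σ hσ => ⟨_, hle (aff_mem_Wp hσ 0), _, _, isAff_aff _ _ _⟩
  intro g hg
  obtain ⟨σ, t, c, e⟩ := h1 hg
  have hσ : σ ∈ S := h2 ▸ ⟨g, hg, t, c, e⟩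
  obtain ⟨k, hk⟩ := hQ ⟨_, mul_mem (inv_mem (hle (aff_mem_Wp hσ 0))) hg⟩
  have e' := (isAff_aff (γ := γ) σ 1 0).inv.mul e
  have h3 := (e'.pow_eq (congrArg Subtype.val hk)).2
  obtain ⟨k, hk⟩ := hQ ⟨g, hg⟩
  obtain rfl : t = 1 := funext fun b => by simpa using h3 b (by simp)
  exact ⟨σ, hσ, c, e.eq_aff (e.fix_inr hγ (congrArg Subtype.val hk))⟩

/-- The Sylow `p`-subgroups of `G` are generated by elements of order `p`. -/
def Om (p : ℕ) (G : Type) [Group G] : Prop :=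
  ∀ S T : Subgroup G, SylIn p S ⊤ → (∀ g ∈ S, g ^ p = 1 → g ∈ T) → S ≤ T

theorem om_of {G G' : Type} [Group G] [Group G'] [Finite G] (e : G ≃* G') {S : Subgroup G} (hS : SylIn p S ⊤)
    (h : ∀ T : Subgroup G, (∀ g ∈ S, g ^ p = 1 → g ∈ T) → S ≤ T) : Om p G' := by
  intro S' T hS' h' x hx
  haveI : Finite G' := Finite.of_equiv _ e.toEquiv
  have h1 := hS.map e.toMonoidHom
  rw [map_top_of_surjective _ e.surjective] at h1
  obtain ⟨k, -, rfl⟩ := h1.exists_conj hS'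
  obtain ⟨_, ⟨y, hy, rfl⟩, rfl⟩ := hx
  exact h (T.comap ((MulAut.conj k).toMonoidHom.comp e.toMonoidHom)) (fun g hg hp => h' _ ⟨_, ⟨g, hg, rfl⟩, rfl⟩
    (by rw [← map_pow, hp, map_one])) hy

theorem card_Pt : Fintype.card (Pt p β γ) = Fintype.card β * p + Fintype.card γ := by simp

theorem om_perm (p : ℕ) [Fact p.Prime] (n : ℕ) : ∀ (α : Type) [Fintype α] [DecidableEq α], Fintype.card α = n →
    Om p (Perm α) := by
  induction n using Nat.strong_induction_on with | _ n ih => ?_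
  intro α _ _ hα
  rcases Nat.eq_zero_or_pos n with rfl | hn
  · haveI := Fintype.card_eq_zero_iff.1 hα
    exact fun S T _ _ g _ => by rw [Subsingleton.elim g 1]; exact one_mem _
  have hp := (Fact.out : p.Prime)
  obtain ⟨S, hS⟩ := exists_sylIn p (⊤ : Subgroup (Perm (Fin (n / p))))
  refine om_of (Fintype.equivOfCardEq (α := Pt p (Fin (n / p)) (Fin (n % p))) (by
    rw [card_Pt, hα, Fintype.card_fin, Fintype.card_fin, Nat.div_add_mod'])).permCongrHom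
    (sylIn_Wp (by simpa using Nat.mod_lt _ hp.pos) hS) fun T h => ?_
  rintro _ ⟨σ, hσ, c, rfl⟩
  rw [aff_eq]
  refine mul_mem (mul_mem (h _ (aff_mem_Wp (one_mem _) _) (tr_pow _)) ?_) ?_
  · exact (map_one (dg (p := p) (β := Fin (n / p)) (Fin (n % p)))).symm ▸ T.one_mem
  exact ih _ (Nat.div_lt_self hn hp.one_lt) _ (Fintype.card_fin _) S (T.comap (hat p (Fin (n % p)))) hS
    (fun g hg e => h _ (aff_mem_Wp hg 0) (by rw [← map_pow, e, map_one])) hσ

end Cfsg.Agent.FusE
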