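import Cfsg.Agent.FusE.Alt1

/-! The `p`-fusion system of `A_n` (`n ≥ p²`, `n ≡ 0, 1 mod p`): no proper strongly closed subgroups (`sc_le`). -/

set_option autoImplicit false
set_option linter.unusedSectionVars false

namespace Cfsg.Agent.FusE

open Subgroup Cfsg Cfsg.Agent.Loc Cfsg.Agent.Fus Equiv Sum

attribute [-simp] ZMod.inv_coe_unit

variable {p : ℕ} [Fact p.Prime] {β γ : Type} [Fintype β] [DecidableEq β] [Fintype γ] [DecidableEq γ]

theorem sign_of_pow {α : Type} [Fintype α] [DecidableEq α] (h2 : p ≠ 2) {g : Perm α} {k : ℕ} (h : g ^ p ^ k = 1) :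
    Perm.sign g = 1 := by
  have := congrArg Perm.sign h
  rwa [map_pow, map_one, Int.units_pow_eq_pow_mod_two, Nat.odd_iff.1 ((Fact.out : p.Prime).odd_of_ne_two h2).pow,
    pow_one] at this

theorem exists_conj_even {α : Type} [Fintype α] [DecidableEq α] {x y w : Perm α} (hx : x ^ p = 1) (hy : y ^ p = 1)
    (h : x.support.card = y.support.card) (hw : Perm.sign w = -1) (hc : w * x * w⁻¹ = x) :
    ∃ k ∈ alternatingGroup α, k * x * k⁻¹ = y := by
  have key : ∀ x : Perm α, x ^ p = 1 → x.cycleType = Multiset.replicate (x.support.card / p) p := fun x hx => by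
    have h1 := Multiset.eq_replicate_card.2 (Perm.pow_prime_eq_one_iff.1 hx)
    rw [← Perm.sum_cycleType, h1, Multiset.sum_replicate, smul_eq_mul, Nat.mul_div_cancel _ (Fact.out : p.Prime).pos]
  obtain ⟨k, hk⟩ := isConj_iff.1 (Perm.isConj_iff_cycleType_eq.2 ((key x hx).trans (h ▸ (key y hy).symm)))
  rcases Int.units_eq_one_or (Perm.sign k) with h1 | h1
  · exact ⟨k, h1, hk⟩
  · exact ⟨k * w, by simp [h1, hw], by rw [← hk, mul_inv_rev, ← mul_assoc, mul_assoc k, mul_assoc k, hc]⟩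

theorem exists_third (h3 : 3 ≤ Fintype.card β) (a b : β) : ∃ c, c ≠ a ∧ c ≠ b := by
  obtain ⟨c, -, hc⟩ := Finset.exists_mem_notMem_of_card_lt_card (s := {a, b}) (t := Finset.univ)
    (Finset.card_le_two.trans_lt h3)
  exact ⟨c, by simpa using hc⟩

theorem tr_add (f g : β → ZMod p) : aff γ 1 1 (f + g) = aff γ 1 1 f * aff γ 1 1 g := map_mul (tr γ) (.ofAdd f) (.ofAdd g)

theorem tr_sub (f g : β → ZMod p) : aff γ 1 1 (f - g) = aff γ 1 1 f * (aff γ 1 1 g)⁻¹ := by
  rw [eq_mul_inv_iff_mul_eq, ← tr_add, sub_add_cancel]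

theorem aff_eq' (σ : Perm β) (c : β → ZMod p) : aff γ σ 1 c = aff γ 1 1 (fun b => c (σ⁻¹ b)) * hat p γ σ :=
  pt_ext (fun b y => by simp [hat_apply]) fun _ => rfl

theorem hat_conj (σ : Perm β) (f : β → ZMod p) :
    hat p γ σ * aff γ 1 1 f * (hat p γ σ)⁻¹ = aff γ 1 1 fun b => f (σ⁻¹ b) := by
  simpa [hat_apply] using (isAff_aff (γ := γ) σ 1 0).conj f

theorem hat_conj_single (σ : Perm β) (b : β) (s : ZMod p) :
    hat p γ σ * aff γ 1 1 (Pi.single b s) * (hat p γ σ)⁻¹ = aff γ 1 1 (Pi.single (σ b) s) := by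
  rw [hat_conj]; congr 1; ext a; simp [Pi.single_apply, Equiv.symm_apply_eq]

variable (p β γ) in
/-- The even translations. -/
def A0 : Subgroup (Perm (Pt p β γ)) := (tr γ).range ⊓ alternatingGroup _

theorem mem_A0 {f : β → ZMod p} (h : aff γ 1 1 f ∈ alternatingGroup _) : aff γ 1 1 f ∈ A0 p β γ := ⟨⟨.ofAdd f, rfl⟩, h⟩

theorem A0_le (S : Subgroup (Perm β)) : A0 p β γ ≤ Wp p γ S ⊓ alternatingGroup _ :=
  inf_le_inf_right _ (by rintro _ ⟨f, rfl⟩; exact aff_mem_Wp (one_mem _) _)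

theorem tr_single_sub (a b : β) (s : ZMod p) : 
    aff γ 1 1 (Pi.single a s - Pi.single b s : β → ZMod p) ∈ alternatingGroup _ := by
  rw [tr_sub, ← swap_apply_left a b, ← hat_conj_single]
  simp only [Perm.mem_alternatingGroup, map_mul, Perm.sign_inv]
  rw [mul_right_comm (Perm.sign (hat p γ _)), Int.units_mul_self, one_mul, Int.units_mul_self]

theorem hat_mem {σ : Perm β} {k : ℕ} (h : σ ^ p ^ k = 1) : hat p γ σ ∈ alternatingGroup _ := by
  rw [Perm.mem_alternatingGroup, sign_hat]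
  by_cases h2 : p = 2
  · rw [h2, Int.units_sq]
  · rw [sign_of_pow h2 h, one_pow]

theorem Wr_le_normalizer : Wr p β γ ≤ normalizer (A0 p β γ : Set (Perm (Pt p β γ))) :=
  le_normalizer_of_cj_le fun g ⟨σ, t, c, h⟩ => cj_le_iff_forall.2 fun _ ⟨⟨f, e⟩, hf⟩ =>
    ⟨by rw [← e]; exact ⟨_, ((h.conj f.toAdd).trans (tr_apply _).symm).symm⟩, (alternatingGroup.normal).conj_mem _ hf g⟩

theorem mem_Wr_of_conj (h3 : 3 ≤ Fintype.card β) (hγ : Fintype.card γ < p) {g : Perm (Pt p β γ)}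
    (h : ∀ x ∈ A0 p β γ, g * x * g⁻¹ ∈ Wr p β γ) : g ∈ Wr p β γ := mem_Wr' hγ fun b => by
  obtain ⟨a, ha, -⟩ := exists_third h3 b b
  obtain ⟨c, hc, hca⟩ := exists_third h3 b a
  refine ⟨_, _, h _ (mem_A0 (tr_single_sub b a 1)), h _ (mem_A0 (tr_single_sub b c 1)), by simp [ha.symm],
    by simp [hc.symm], fun d h1 h2 => by_contra fun hd => ?_⟩
  simp only [Pi.sub_apply, Pi.single_apply, hd, if_false, zero_sub, ne_eq, neg_eq_zero, ite_eq_right_iff,
    one_ne_zero, imp_false, not_not] at h1 h2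
  exact hca (h2.symm.trans h1)

variable [Subsingleton γ]

theorem card_lt : Fintype.card γ < p :=
  (Fintype.card_le_one_iff_subsingleton.2 inferInstance).trans_lt (Fact.out : p.Prime).one_lt

theorem IsAff.eq_aff' {g : Perm (Pt p β γ)} {σ : Perm β} {t : β → (ZMod p)ˣ} {c : β → ZMod p} (h : IsAff g σ t c) :
    g = aff γ σ t c := h.eq_aff fun z => let ⟨z', e⟩ := h.inr z; by rw [e, Subsingleton.elim z z']

theorem cent_A0 (h3 : 3 ≤ Fintype.card β) {g : Perm (Pt p β γ)} (hg : g ∈ alternatingGroup _)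
    (hc : g ∈ centralizer (A0 p β γ : Set (Perm (Pt p β γ)))) : g ∈ A0 p β γ := by
  obtain ⟨σ, t, c, h⟩ := mem_Wr_of_conj h3 card_lt (g := g) fun x hx => by
    rw [← hc x hx, mul_inv_cancel_right]; exact Wp_le ⊤ (A0_le ⊤ hx).1
  have key : ∀ a b : β, a ≠ b → (Pi.single a 1 - Pi.single b 1 : β → ZMod p) (σ a) = t a := fun a b hab => by
    have := congrArg (· (inl (a, 0))) (hc _ (mem_A0 (tr_single_sub a b 1)))
    simp only [Perm.mul_apply, aff_inl, h _ _] at this
    simp [hab, Pi.single_apply] at this ⊢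
    linear_combination this
  have h1 : ∀ a, σ a = a := fun a => by_contra fun ha => by
    obtain ⟨b, hb, hb'⟩ := exists_third h3 a (σ a)
    simpa [ha, hb'.symm] using (key a b hb.symm).symm
  obtain rfl : σ = 1 := Equiv.ext h1
  obtain rfl : t = 1 := funext fun a => Units.ext (by
    obtain ⟨b, hb, -⟩ := exists_third h3 a a
    simpa [hb.symm] using (key a b hb.symm).symm)
  rw [h.eq_aff'] at hg ⊢
  exact mem_A0 hg

theorem dg_comm (σ : Perm β) (b : β) (t : (ZMod p)ˣ) : dg γ (Pi.mulSingle (σ b) t * Pi.mulSingle b t⁻¹) =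
    hat p γ σ * (dg γ (Pi.mulSingle b t) * (hat p γ σ)⁻¹ * (dg γ (Pi.mulSingle b t))⁻¹) := by
  rw [← map_inv, ← map_inv, map_mul, ← mul_assoc, ← mul_assoc, Pi.mulSingle_inv]
  congr 1
  exact pt_ext (fun a y => by simp [dg_apply, hat_apply, Pi.mulSingle_apply, Equiv.symm_apply_eq]) fun _ => rfl

theorem dg_mem (σ : Perm β) (b : β) (t : (ZMod p)ˣ) :
    dg γ (Pi.mulSingle (σ b) t * Pi.mulSingle b t⁻¹) ∈ alternatingGroup _ := by
  rw [dg_comm, Perm.mem_alternatingGroup]
  simp only [map_mul, Perm.sign_inv]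
  rw [mul_assoc, mul_left_comm, ← mul_assoc (Perm.sign (hat p γ σ)), Int.units_mul_self, one_mul, Int.units_mul_self]

theorem zmod_two : ∀ s : ZMod 2, s = 0 ∨ s = 1 := by decide

theorem sign_tr_single {b : β} : Perm.sign (aff γ 1 1 (Pi.single b (1 : ZMod 2))) = -1 := by
  rw [sign_tr, Finset.prod_eq_single b (fun a _ h => by simp [h]) (by simp)]
  simp only [Pi.single_eq_same]; decide

theorem support_aff {σ : Perm β} {c : β → ZMod p} (s : Finset β) (h : ∀ b, b ∈ s ↔ σ b ≠ b ∨ c b ≠ 0) :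
    (aff γ σ 1 c).support = (s ×ˢ Finset.univ).map ⟨inl, inl_injective⟩ := by
  ext (⟨b, y⟩ | z) <;> simp [h, imp_iff_not_or]

theorem exists_odd (h3 : 3 ≤ Fintype.card β) (s : Finset β) : ∃ w : Perm (Pt p β γ), Perm.sign w = -1 ∧
    w * aff γ 1 1 (fun b => if b ∈ s then 1 else 0) * w⁻¹ = aff γ 1 1 fun b => if b ∈ s then 1 else 0 := by
  by_cases h2 : p = 2
  · subst h2
    obtain ⟨b⟩ := Fintype.card_pos_iff.1 (show 0 < Fintype.card β by omega)
    exact ⟨_, sign_tr_single (b := b), by rw [← tr_add, add_comm, tr_add, mul_inv_cancel_right]⟩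
  obtain ⟨a, b, hab, e⟩ := Fintype.exists_ne_map_eq_of_card_lt (fun b => decide (b ∈ s)) (by simp; omega)
  refine ⟨hat p γ (swap a b), by rw [sign_hat, Perm.sign_swap hab, ((Fact.out : p.Prime).odd_of_ne_two h2).neg_one_pow],
    ?_⟩
  rw [hat_conj]; congr 1; ext c
  simp only [decide_eq_decide] at e
  simp only [Equiv.swap_inv, swap_apply_def]
  split_ifs <;> simp_all

variable {S : Subgroup (Perm β)} {T : Subgroup (Perm (Pt p β γ))}

theorem SC.tr_conj (h : SC (alternatingGroup _) (Wp p γ S ⊓ alternatingGroup _) T) (hT : T ≤ alternatingGroup _)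
    {k x : Perm (Pt p β γ)} (hk : k ∈ alternatingGroup _) (hx : x ∈ T) {f : β → ZMod p}
    (e : k * x * k⁻¹ = aff γ 1 1 f) : aff γ 1 1 f ∈ T :=
  e ▸ h x hx k hk ⟨e ▸ aff_mem_Wp (one_mem _) f, (alternatingGroup.normal).conj_mem _ (hT hx) k⟩

theorem exists_even_move (h3 : 3 ≤ Fintype.card β) (a b : β) : ∃ σ : Perm β, Perm.sign σ = 1 ∧ σ a = b := by
  obtain ⟨c, h1, h2⟩ := exists_third h3 a b
  exact ⟨swap b c * swap a c, by simp [h1.symm, h2.symm], by simp⟩

theorem A0_le_of (h3 : 3 ≤ Fintype.card β) (hT : T ≤ alternatingGroup _)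
    (h : ∀ a b : β, aff γ 1 1 (Pi.single a 1 - Pi.single b 1) ∈ T)
    (h' : p ≠ 2 → ∀ a : β, aff γ 1 1 (Pi.single a 1) ∈ T) : A0 p β γ ≤ T := by
  let W : Submodule (ZMod p) (β → ZMod p) := AddSubgroup.toZModSubmodule p (Subgroup.toAddSubgroup' (T.comap (tr γ)))
  have hW : ∀ f, f ∈ W ↔ aff γ 1 1 f ∈ T := fun _ => Iff.rfl
  obtain ⟨a⟩ := Fintype.card_pos_iff.1 (show 0 < Fintype.card β by omega)
  rintro _ ⟨⟨f, rfl⟩, hf⟩
  have h1 : f.toAdd - (∑ b, f.toAdd b) • Pi.single a 1 ∈ W := by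
    convert W.sum_mem (t := Finset.univ) fun b _ => W.smul_mem (f.toAdd b) ((hW _).2 (h b a)) using 1
    ext c; simp [smul_sub, Finset.sum_smul, Pi.single_apply, Finset.sum_apply]
  refine (hW _).1 ((W.sub_mem_iff_left ?_).1 h1)
  by_cases h2 : p = 2
  · subst h2
    have h4 := hT ((hW _).1 h1)
    rw [tr_sub] at h4
    have h5 := inv_mem_iff.1 ((Subgroup.mul_mem_cancel_left _ hf).1 h4)
    rcases zmod_two (∑ b, f.toAdd b) with e | e <;> rw [e] at h5 ⊢
    · simp
    · simp [sign_tr_single] at h5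
  · exact W.smul_mem _ ((hW _).2 (h' h2 a))

theorem A0_le_sc (h3 : 3 ≤ Fintype.card β) (hS : IsPGroup p S) (hτ : p = 2 → ∃ a b, a ≠ b ∧ swap a b ∈ S)
    (h : SC (alternatingGroup _) (Wp p γ S ⊓ alternatingGroup _) T) (hT : T ≤ Wp p γ S ⊓ alternatingGroup _)
    {f : β → ZMod p} (hf : aff γ 1 1 f ∈ T) (h0 : f ≠ 0) : A0 p β γ ≤ T := by
  have hT' := hT.trans inf_le_right
  by_cases h2 : p = 2
  · subst h2
    have h01 : ∀ s : ZMod 2, s = 0 ∨ s = 1 := zmod_two
    have hh : ∀ σ : Perm β, hat 2 γ σ ∈ alternatingGroup _ := fun σ => by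
      rw [Perm.mem_alternatingGroup, sign_hat, Int.units_sq]
    have key : ∀ f : β → ZMod 2, aff γ 1 1 f ∈ T → ∀ a b, f a ≠ f b → A0 2 β γ ≤ T := fun f hf a b hab => by
      have h1 : aff γ 1 1 (Pi.single a 1 - Pi.single b 1) ∈ T := by
        have := mul_mem hf (inv_mem (h.tr_conj hT' (hh (swap a b)) hf (hat_conj _ _)))
        rw [← tr_sub] at this
        convert this using 2
        have hab' : a ≠ b := fun e => hab (e ▸ rfl)
        ext c
        have h1 : f a - f b = 1 := (h01 _).resolve_left (sub_ne_zero.2 hab)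
        simp only [Equiv.swap_inv, swap_apply_def, Pi.sub_apply, Pi.single_apply]
        split_ifs <;> simp_all
        rw [← neg_sub (f a), h1, CharTwo.neg_eq]
      refine A0_le_of h3 hT' (fun c d => ?_) (absurd rfl)
      rcases eq_or_ne c d with rfl | hcd
      · rw [sub_self]; exact (congrArg (· ∈ T) aff_one).mpr (one_mem T)
      obtain ⟨σ, h2, h3⟩ : ∃ σ : Perm β, σ a = c ∧ σ b = d := ⟨swap (swap a c b) d * swap a c, by
        rw [Perm.mul_apply, swap_apply_left, swap_apply_of_ne_of_ne (fun e => hab (by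
          rw [(swap a c).injective ((swap_apply_left a c).trans e)])) hcd], by simp⟩
      exact h.tr_conj hT' (hh σ) h1 (by
        rw [tr_sub, tr_sub, ← h2, ← h3, ← hat_conj_single, ← hat_conj_single]; group)
    by_contra hc
    have hf1 : ∀ a, f a = 1 := fun a => by
      obtain ⟨b, hb⟩ := Function.ne_iff.1 h0
      exact (by_contra fun e => hc (key f hf a b e) : f a = f b).trans ((h01 _).resolve_left hb)
    obtain ⟨a, b, hab, hs⟩ := hτ rfl
    obtain ⟨c, hca, hcb⟩ := exists_third h3 a b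
    have sq : ∀ g : β → ZMod 2, g a = g b → aff γ (swap a b) 1 g ^ 2 = 1 := fun g hg => pt_ext (fun d y => by
      have : g (swap a b d) = g d := by rw [swap_apply_def]; split_ifs <;> simp_all
      simp [sq, this, add_assoc, CharTwo.add_self_eq_zero]) fun _ => rfl
    obtain ⟨k, hk, e⟩ := exists_conj_even (tr_pow f) (sq (fun d => if d = a ∨ d = b then 0 else 1) (by simp))
      (by rw [support_aff .univ (by simp [hf1]), support_aff .univ fun d => by
        rw [swap_apply_def]; split_ifs <;> simp_all [eq_comm]]) (sign_tr_single (b := a))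
      (by rw [← tr_add, add_comm, tr_add, mul_inv_cancel_right])
    have h1 := mul_mem hf (h _ hf k hk ⟨e ▸ aff_mem_Wp hs _, (alternatingGroup.normal).conj_mem _ (hT' hf) k⟩)
    rw [e, show aff γ 1 1 f * aff γ (swap a b) 1 _ = aff γ (swap a b) 1 fun d => if d = a ∨ d = b then 1 else 0 from
      pt_ext (fun d y => by simp [hf1]; split_ifs <;> simp [add_assoc, CharTwo.add_self_eq_zero]) fun _ => rfl] at h1
    obtain ⟨k, hk, e⟩ := exists_conj_even (tr_pow fun d => if d = a ∨ d = b then 1 else 0)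
      (sq (fun d => if d = a ∨ d = b then 1 else 0) (by simp))
      (by rw [support_aff {a, b} (by simp [or_iff_not_imp_left]), support_aff {a, b} fun d => by
        rw [swap_apply_def]; split_ifs <;> simp_all [eq_comm]]) (sign_tr_single (b := a))
      (by rw [← tr_add, add_comm, tr_add, mul_inv_cancel_right])
    exact hc (key (fun d => if d = a ∨ d = b then 1 else 0) (h.tr_conj hT' (inv_mem hk) h1 (by rw [← e]; group)) a c (by simp [hca, hcb]))
  have h22 : (2 : ZMod p) ≠ 0 := Ring.two_ne_zero (by rwa [ZMod.ringChar_zmod_n])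
  have step : ∀ f : β → ZMod p, aff γ 1 1 f ∈ T → ∀ a b, a ≠ b →
      aff γ 1 1 (Pi.single a (2 * f a) + Pi.single b (2 * f b)) ∈ T := fun f hf a b hab => by
    have := mul_mem hf (inv_mem (h.tr_conj hT' (k := dg γ (Pi.mulSingle (swap a b b) (-1) * Pi.mulSingle b (-1)⁻¹))
      (dg_mem ..) hf ((isAff_aff _ _ _).conj f)))
    rw [← tr_sub] at this
    convert this using 2
    ext c
    simp only [swap_apply_right, Pi.add_apply, Pi.single_apply, Pi.sub_apply, Pi.mul_apply, Pi.mulSingle_apply,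
      inv_one, Perm.one_apply]
    split_ifs <;> simp_all <;> ring
  obtain ⟨a, ha⟩ := Function.ne_iff.1 h0
  obtain ⟨b, hb, -⟩ := exists_third h3 a a
  obtain ⟨c, hc, hcb⟩ := exists_third h3 a b
  have h4 := step _ (step f hf a b hb.symm) a c hc.symm
  simp only [Pi.add_apply, Pi.single_eq_same, Pi.single_eq_of_ne hb.symm, Pi.single_eq_of_ne hc,
    Pi.single_eq_of_ne hcb, add_zero, mul_zero, Pi.single_zero] at h4
  have h5 : aff γ 1 1 (Pi.single a 1) ∈ T := by
    have := pow_mem h4 (2 * (2 * f a))⁻¹.val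
    rw [← tr_apply, ← map_pow, ← ofAdd_nsmul, ← Nat.cast_smul_eq_nsmul (ZMod p), ZMod.natCast_zmod_val,
      ← Pi.single_smul', smul_eq_mul, inv_mul_cancel₀ (by simp [h22]; exact ha)] at this
    exact this
  have h6 : ∀ d, aff γ 1 1 (Pi.single d 1) ∈ T := fun d => by
    obtain ⟨σ, h1, rfl⟩ := exists_even_move h3 a d
    exact h.tr_conj hT' (by rw [Perm.mem_alternatingGroup, sign_hat, h1, one_pow]) h5 (hat_conj_single ..)
  exact A0_le_of h3 hT' (fun a b => by rw [tr_sub]; exact mul_mem (h6 a) (inv_mem (h6 b))) fun _ => h6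

theorem sc_le (h3 : 3 ≤ Fintype.card β) (hS : SylIn p S ⊤) (hτ : p = 2 → ∃ a b, a ≠ b ∧ swap a b ∈ S)
    (hT : T ≤ Wp p γ S ⊓ alternatingGroup _) (h0 : T ≠ ⊥)
    (h : SC (alternatingGroup _) (Wp p γ S ⊓ alternatingGroup _) T) : Wp p γ S ⊓ alternatingGroup _ ≤ T := by
  obtain ⟨z, hz, hz1, hc⟩ := h.exists_central ((sylIn_Wp card_lt hS).inf_normal' le_top
    (normalizer_eq_top _).ge) hT h0
  obtain ⟨⟨f, rfl⟩, -⟩ := cent_A0 h3 (hT hz).2 fun x hx => hc x (A0_le S hx)
  have hA := A0_le_sc h3 hS.pg hτ h hT hz fun e => hz1 (by rw [show f = 1 from e, map_one])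
  have h1 := om_perm p _ β rfl S (T.comap (hat p γ)) hS fun σ hσ e => by
    obtain ⟨w, hw, hc⟩ := exists_odd (p := p) (γ := γ) h3 σ.support
    have h2 : hat p γ σ ∈ alternatingGroup _ := hat_mem (k := 1) (by rwa [pow_one])
    obtain ⟨k, hk, e⟩ := exists_conj_even (tr_pow _) (y := hat p γ σ) (by rw [← map_pow, e, map_one])
      (by rw [support_aff σ.support (by simp), hat_apply, support_aff σ.support (by simp)]) hw hc
    rw [mem_comap, ← e]
    refine h _ (hA (mem_A0 ?_)) k hk (e ▸ ⟨aff_mem_Wp hσ 0, h2⟩)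
    rw [← e] at h2
    simpa [Perm.mem_alternatingGroup.1 hk] using h2
  rintro _ ⟨⟨σ, hσ, c, rfl⟩, hg⟩
  rw [aff_eq'] at hg ⊢
  exact mul_mem (hA (mem_A0 ((Subgroup.mul_mem_cancel_right _ (hT (h1 hσ)).2).1 hg))) (h1 hσ)

end Cfsg.Agent.FusE
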