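import Cfsg.Agent.FusE.Alt2

/-! The `p`-fusion system of `A_n` (`n ≥ p²`, `n ≥ 6`, `n ≡ 0, 1 mod p`) is simple (`simple_alt`). -/

set_option autoImplicit false
set_option linter.unusedSectionVars false

namespace Cfsg.Agent.FusE

open Subgroup Cfsg Cfsg.Agent.Loc Cfsg.Agent.Fus Equiv Sum

attribute [-simp] ZMod.inv_coe_unit

variable {p : ℕ} [Fact p.Prime] {β γ : Type} [Fintype β] [DecidableEq β] [Fintype γ] [DecidableEq γ]

variable (p β γ) in
/-- `O^{p'}` of the normaliser of the even translations. -/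
abbrev M1 : Subgroup (Perm (Pt p β γ)) :=
  OppA p (alternatingGroup _ ⊓ normalizer (A0 p β γ : Set (Perm (Pt p β γ))))

theorem M1_conj {g x : Perm (Pt p β γ)} (hg : g ∈ Wr p β γ) (hx : x ∈ M1 p β γ) : g * x * g⁻¹ ∈ M1 p β γ :=
  cj_OppA_le (cj_le_iff_forall.2 fun y hy => mem_inf.2 ⟨alternatingGroup.normal.conj_mem _ (mem_inf.1 hy).1 g,
    mul_mem (mul_mem (Wr_le_normalizer hg) (mem_inf.1 hy).2) (inv_mem (Wr_le_normalizer hg))⟩) (conj_mem_cj hx)

theorem hat_mem_M1 {σ : Perm β} (h : σ ^ p = 1) : hat p γ σ ∈ M1 p β γ :=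
  mem_OppA ⟨hat_mem (k := 1) (by rwa [pow_one]), Wr_le_normalizer ⟨_, _, _, isAff_aff _ _ _⟩⟩
    ⟨1, by rw [pow_one, ← map_pow, h, map_one]⟩

theorem tr_mem_M1 {f : β → ZMod p} (h : aff γ 1 1 f ∈ alternatingGroup _) : aff γ 1 1 f ∈ M1 p β γ :=
  mem_OppA ⟨h, Wr_le_normalizer ⟨_, _, _, isAff_aff _ _ _⟩⟩ ⟨1, by rw [pow_one, tr_pow]⟩

theorem hat_mem_M1' (hp : p ≤ Fintype.card β) {τ : Perm β} (h1 : τ ≠ 1) (hτ : τ ^ p = 1) {σ : Perm β}
    (h : p ≠ 2 → Perm.sign σ = 1) : hat p γ σ ∈ M1 p β γ := by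
  change σ ∈ (M1 p β γ).comap (hat p γ)
  by_cases h2 : p = 2
  · subst h2
    refine (eq_top_iff.1 Perm.closure_isSwap).trans ((closure_le _).2 ?_) (mem_top σ)
    rintro _ ⟨a, b, -, rfl⟩
    exact hat_mem_M1 (by simp [sq])
  by_cases h3 : p = 3
  · subst h3
    refine Perm.closure_three_cycles_eq_alternating.ge.trans ((closure_le _).2 fun g hg => ?_) (h h2)
    exact hat_mem_M1 (by rw [← Perm.IsThreeCycle.orderOf hg, pow_orderOf_eq_one])
  haveI : ((M1 p β γ).comap (hat p γ)).Normal := ⟨fun x hx k => by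
    rw [mem_comap, map_mul, map_mul, map_inv]; exact M1_conj ⟨_, _, _, isAff_aff _ _ _⟩ hx⟩
  refine Perm.alternatingGroup_le_of_normal ?_ ⟨⟨τ, hat_mem_M1 hτ⟩, 1, fun e => h1 (congrArg Subtype.val e)⟩ (h h2)
  rw [Nat.card_eq_fintype_card]
  exact ((Fact.out : p.Prime).five_le_of_ne_two_of_ne_three h2 h3).trans hp

theorem dg_mem_M1 [Subsingleton γ] (h3 : 3 ≤ Fintype.card β) (hp : p ≤ Fintype.card β) {τ : Perm β} (h1 : τ ≠ 1) (hτ : τ ^ p = 1)
    {t : β → (ZMod p)ˣ} (h : ∏ b, t b = 1) : dg γ t ∈ M1 p β γ := by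
  obtain ⟨a⟩ := Fintype.card_pos_iff.1 (show 0 < Fintype.card β by omega)
  have : t = ∏ b, (Pi.mulSingle b (t b) * Pi.mulSingle a (t b)⁻¹) := by
    rw [Finset.prod_mul_distrib, Finset.univ_prod_mulSingle]
    ext1 c
    simp only [Pi.mul_apply, Finset.prod_apply, Pi.mulSingle_apply]
    split_ifs <;> simp [h]
  rw [this]
  refine prod_mem (S := (M1 p β γ).comap (dg γ)) fun b _ => ?_
  obtain ⟨σ, e1, rfl⟩ := exists_even_move h3 a b
  have := hat_mem_M1' (γ := γ) hp h1 hτ fun _ => e1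
  rw [mem_comap, dg_comm]
  exact mul_mem this (M1_conj ⟨_, _, _, isAff_aff _ _ _⟩ (inv_mem this))

/-- Linear maps of determinant one of the plane. -/
def mat (a b c d : ZMod p) (h : a * d - b * c = 1) : Perm (ZMod p × ZMod p) where
  toFun x := (a * x.1 + b * x.2, c * x.1 + d * x.2)
  invFun x := (d * x.1 - b * x.2, a * x.2 - c * x.1)
  left_inv x := Prod.ext (by linear_combination x.1 * h) (by linear_combination x.2 * h)
  right_inv x := Prod.ext (by linear_combination x.1 * h) (by linear_combination x.2 * h)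

@[simp] theorem mat_apply (a b c d : ZMod p) (h : a * d - b * c = 1) (x y : ZMod p) :
    mat a b c d h (x, y) = (a * x + b * y, c * x + d * y) := rfl

theorem mat_pow (b c : ZMod p) (h : b * c = 0) : mat 1 b c 1 (by simp [h]) ^ p = 1 := by
  have : ∀ n : ℕ, ∀ x y, (mat 1 b c 1 (by simp [h]) ^ n) (x, y) = (x + n * b * y, n * c * x + y) := fun n x y => by
    induction n with
    | zero => simp
    | succ n ih =>
      rw [pow_succ', Perm.mul_apply, ih, mat_apply]; push_cast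
      exact Prod.ext (by linear_combination n * x * h) (by linear_combination n * y * h)
  exact Equiv.ext fun x => by simp [this p x.1 x.2]

variable (β γ) in
/-- Permutations of the distinguished `p²` points. -/
noncomputable def bl : Perm (ZMod p × ZMod p) →* Perm (Pt p (ZMod p ⊕ β) γ) :=
  Perm.viaEmbeddingHom ⟨fun x => inl (inl x.1, x.2), fun x y h => by simpa [Prod.ext_iff] using h⟩

@[simp] theorem bl_inl (e : Perm (ZMod p × ZMod p)) (x y : ZMod p) :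
    bl β γ e (inl (inl x, y)) = inl (inl (e (x, y)).1, (e (x, y)).2) := Perm.viaEmbedding_apply e _ (x, y)

@[simp] theorem bl_inr (e : Perm (ZMod p × ZMod p)) (b : β) (y : ZMod p) :
    bl β γ e (inl (inr b, y)) = inl (inr b, y) := Perm.viaEmbedding_apply_of_notMem e _ _ (by rintro ⟨x, h⟩; cases h)

@[simp] theorem bl_inr' (e : Perm (ZMod p × ZMod p)) (z : γ) : bl β γ e (inr z) = inr z :=
  Perm.viaEmbedding_apply_of_notMem e _ _ (by simp)

variable (β) in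
/-- Translation of the distinguished blocks. -/
def tau : Multiplicative (ZMod p) →* Perm (ZMod p ⊕ β) where
  toFun u := Perm.sumCongr (Equiv.addRight u.toAdd) 1
  map_one' := Equiv.ext (by rintro (x | b) <;> simp)
  map_mul' _ _ := Equiv.ext (by rintro (x | b) <;> simp; ring)

@[simp] theorem tau_inl (u : Multiplicative (ZMod p)) (x : ZMod p) : tau β u (inl x) = inl (x + u.toAdd) := rfl
@[simp] theorem tau_inr (u : Multiplicative (ZMod p)) (b : β) : tau β u (inr b) = inr b := rfl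

theorem pt_ext' {g h : Perm (Pt p (ZMod p ⊕ β) γ)} (h1 : ∀ x y, g (inl (inl x, y)) = h (inl (inl x, y)))
    (h2 : ∀ b y, g (inl (inr b, y)) = h (inl (inr b, y))) (h3 : ∀ z, g (inr z) = h (inr z)) : g = h :=
  pt_ext (by rintro (x | b); exacts [h1 x, h2 b]) h3

variable (γ) in
/-- Elements of the second centric subgroup. -/
def rr (u v : ZMod p) (f : β → ZMod p) : Perm (Pt p (ZMod p ⊕ β) γ) :=
  aff γ (tau β (.ofAdd u)) 1 (Sum.elim (fun _ => v) f)

variable (p β γ) in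
/-- The second centric subgroup. -/
def R2 : Subgroup (Perm (Pt p (ZMod p ⊕ β) γ)) where
  carrier := {g | ∃ u v f, g = rr γ u v f}
  one_mem' := ⟨0, 0, 0, pt_ext' (by simp [rr]) (by simp [rr]) fun _ => rfl⟩
  mul_mem' := by
    rintro _ _ ⟨u, v, f, rfl⟩ ⟨u', v', f', rfl⟩
    exact ⟨u' + u, v' + v, f' + f, pt_ext' (by simp [rr, add_assoc, add_comm u]) (by simp [rr, add_assoc]) fun _ => rfl⟩
  inv_mem' := by
    rintro _ ⟨u, v, f, rfl⟩
    exact ⟨-u, -v, -f, inv_eq_of_mul_eq_one_right (pt_ext' (by simp [rr, -ofAdd_neg]) (by simp [rr, -ofAdd_neg]) fun _ => rfl)⟩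

theorem mat_mem_normalizer (a b c d : ZMod p) (h : a * d - b * c = 1) :
    bl β γ (mat a b c d h) ∈ normalizer (R2 p β γ : Set (Perm (Pt p (ZMod p ⊕ β) γ))) :=
  mem_normalizer_of_cj_le (cj_le_iff_forall.2 (by
    rintro _ ⟨u, v, f, rfl⟩
    exact ⟨a * u + b * v, c * u + d * v, f, mul_inv_eq_iff_eq_mul.2 (pt_ext' (fun x y => by simp [rr]; constructor <;> ring)
      (by simp [rr]) fun _ => by simp [rr])⟩))

theorem diag_mem (h2 : p ≠ 2) (t : (ZMod p)ˣ) : bl β γ (mat (t : ZMod p)⁻¹ 0 0 t (by simp)) ∈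
    OppA p (alternatingGroup _ ⊓ normalizer (R2 p β γ : Set (Perm (Pt p (ZMod p ⊕ β) γ)))) := by
  have key : ∀ b c (h : b * c = 0), bl β γ (mat 1 b c 1 (by simp [h])) ∈
      OppA p (alternatingGroup _ ⊓ normalizer (R2 p β γ : Set (Perm (Pt p (ZMod p ⊕ β) γ)))) := fun b c h => by
    have : bl β γ (mat 1 b c 1 (by simp [h])) ^ p ^ 1 = 1 := by rw [pow_one, ← map_pow, mat_pow b c h, map_one]
    exact mem_OppA ⟨sign_of_pow h2 this, mat_mem_normalizer _ _ _ _ _⟩ ⟨1, this⟩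
  have := mul_mem (mul_mem (mul_mem (key (t : ZMod p)⁻¹ 0 (by simp)) (key 0 (-t) (by simp))) (key (t : ZMod p)⁻¹ 0 (by simp)))
    (mul_mem (mul_mem (key (-1) 0 (by simp)) (key 0 1 (by simp))) (key (-1) 0 (by simp)))
  simp only [← map_mul] at this
  convert this using 2
  refine Equiv.ext fun ⟨x, y⟩ => ?_
  simp only [Perm.mul_apply, mat_apply, Prod.mk.injEq]
  constructor <;> field_simp <;> ring

variable [Subsingleton γ]

theorem cent_R2 {g : Perm (Pt p (ZMod p ⊕ β) γ)}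
    (hc : g ∈ centralizer (R2 p β γ : Set (Perm (Pt p (ZMod p ⊕ β) γ)))) : g ∈ R2 p β γ := by
  have key : ∀ u v f w, rr γ u v f (g w) = g (rr γ u v f w) := fun u v f w =>
    congrArg (· w) (hc _ ⟨u, v, f, rfl⟩)
  have mv : ∀ (f : ZMod p ⊕ β → ZMod p) w, rr γ 0 (f (inl 0)) (fun b => f (inr b)) w ≠ w → rr γ 0 (f (inl 0)) (fun b => f (inr b)) (g w) ≠ g w :=
    fun f w h e => h (g.injective ((key ..).symm.trans e))
  obtain ⟨u, v, h1⟩ : ∃ u v, g (inl (inl 0, 0)) = inl (inl u, v) := by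
    have := mv (Pi.single (inl 0) 1) (inl (inl 0, 0)) (by simp [rr])
    rcases e : g (inl (inl 0, 0)) with ⟨x | b, y⟩ | z <;> simp_all [rr]
  have h2 : ∀ b, ∃ c, g (inl (inr b, 0)) = inl (inr b, c) := fun b => by
    have := mv (Pi.single (inr b) 1) (inl (inr b, 0)) (by simp [rr])
    rcases e : g (inl (inr b, 0)) with ⟨x | b, y⟩ | z <;> simp_all [rr, Pi.single_apply]
  choose f h2 using h2
  refine ⟨u, v, f, IsAff.eq_aff' ?_⟩
  rintro (x | b) y
  · simpa [rr, h1, add_comm] using (key x y 0 (inl (inl 0, 0))).symm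
  · simpa [rr, h2, add_comm] using (key 0 0 (fun _ => y) (inl (inr b, 0))).symm

theorem simple_alt (h3 : 3 ≤ Fintype.card (ZMod p ⊕ β)) {G : Type*} [Group G]
    (e : alternatingGroup (Pt p (ZMod p ⊕ β) γ) ≃* G) (P : Sylow p G) :
    (groupFusionSystem (P : Subgroup G)).IsSimple p := by
  haveI : Finite G := Finite.of_equiv _ e.toEquiv
  have hτ : ∀ u, tau (p := p) β u ^ p = 1 := fun u => by
    rw [← map_pow, show u ^ p = 1 from (pow_card_eq_one (x := u)) ▸ by simp, map_one]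
  have hτ1 : tau (p := p) β (.ofAdd 1) ≠ 1 := fun e => by simpa using congrArg (· (inl 0)) e
  have hp : p ≤ Fintype.card (ZMod p ⊕ β) := by simp
  obtain ⟨S, hS, hle⟩ := exists_sylIn_ge (p := p) (Q := (tau (p := p) β).range) le_top fun ⟨_, u, e⟩ =>
    ⟨1, Subtype.ext (by rw [pow_one]; exact e ▸ hτ u)⟩
  refine crit2 ((sylIn_Wp card_lt hS).inf_normal' le_top (normalizer_eq_top _).ge) (fun h => ?_)
    (fun T hT h0 h => sc_le h3 hS (fun h2 => ?_) hT h0 h) (fun Y hY g hg hN => ?_) e.toMonoidHom e.surjective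
    (fun x _ h => e.injective (h.trans (map_one e).symm)) P
  · have := congrArg (· (inl (inl 0, 0))) (mem_bot.1 ((h ▸ A0_le S : A0 p _ γ ≤ ⊥)
      (mem_A0 (tr_single_sub (inl 0) (inl 1) 1))))
    simp at this
  · subst h2
    refine ⟨inl 0, inl 1, by simp, ?_⟩
    convert hle ⟨.ofAdd 1, rfl⟩ using 1
    refine Equiv.ext ?_
    rintro (x | b)
    · rcases zmod_two x with rfl | rfl <;> simp [CharTwo.add_self_eq_zero]
    · simp [swap_apply_def]
  have hc : Cent p (alternatingGroup _) (A0 p (ZMod p ⊕ β) γ) := fun g hg hc _ => cent_A0 h3 hg hc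
  refine hY.up _ _ (A0_le S) le_rfl hc g hg ?_ hN
  have hM := hY.opp _ (A0_le (γ := γ) S)
  obtain ⟨σ, t, c, h⟩ := mem_Wr_of_conj h3 card_lt (g := g) fun x hx =>
    Wp_le S (conj_mem_of_mem_normalizer hN (A0_le S hx)).1
  rw [h.eq_aff', aff_eq] at hg ⊢
  by_cases h2 : p = 2
  · have h4 := hat_mem_M1' (γ := γ) hp hτ1 (hτ _) (σ := σ) (absurd h2)
    have h5 := dg_mem_M1 (γ := γ) h3 hp hτ1 (hτ _) (t := fun b => t (σ⁻¹ b)) (by
      subst h2; exact Units.ext ((zmod_two _).resolve_left (Units.ne_zero _)))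
    exact hM (mul_mem (mul_mem (tr_mem_M1 ((Subgroup.mul_mem_cancel_right _ (OppA_le _ _ h5).1).1
      ((Subgroup.mul_mem_cancel_right _ (OppA_le _ _ h4).1).1 hg))) h5) h4)
  obtain ⟨s, hs⟩ : ∃ s, s = ∏ b, t (σ⁻¹ b) := ⟨_, rfl⟩
  have hR : R2 p β γ ≤ Wp p γ S ⊓ alternatingGroup _ := by
    rintro _ ⟨u, v, f, rfl⟩
    have h1 : rr γ u v f ∈ Wp p γ S := aff_mem_Wp (hle ⟨_, rfl⟩) _
    obtain ⟨k, hk⟩ := isPGroup_Wp hS.pg ⟨_, h1⟩
    exact ⟨h1, sign_of_pow h2 (congrArg Subtype.val hk)⟩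
  have hd := diag_mem (β := β) (γ := γ) h2 s
  obtain ⟨ρ, hρ⟩ : ∃ ρ, bl β γ (mat (s : ZMod p)⁻¹ 0 0 s (by simp)) = dg γ (Sum.elim (fun _ => s) 1) * hat p γ ρ :=
    ⟨Perm.sumCongr (Equiv.mulLeft₀ _ (inv_ne_zero s.ne_zero)) 1, pt_ext' (by simp [dg_apply, hat_apply])
      (by simp [dg_apply, hat_apply]) (by simp [dg_apply, hat_apply])⟩
  have hn : bl β γ (mat (s : ZMod p)⁻¹ 0 0 s (by simp)) ∈ normalizer (A0 p (ZMod p ⊕ β) γ : Set (Perm _)) :=
    hρ ▸ Wr_le_normalizer (mul_mem ⟨_, _, _, isAff_aff _ _ _⟩ ⟨_, _, _, isAff_aff _ _ _⟩)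
  have h1 := hY.down _ _ le_sup_left (sup_le (A0_le S) hR) _ (hY.up _ _ le_sup_right (sup_le (A0_le S) hR)
    (fun g _ hc _ => cent_R2 hc) _ (OppA_le _ _ hd).1 (hY.opp _ hR hd) (le_normalizer_sup (L := zpowers _)
      (zpowers_le.2 hn) (zpowers_le.2 (OppA_le _ _ hd).2) (mem_zpowers _))) hn
  have h4 := tr_mem_M1 (γ := γ) (f := fun b => c (σ⁻¹ b)) (sign_of_pow (k := 1) h2 (by rw [pow_one, tr_pow]))
  have h5 := dg_mem_M1 (γ := γ) h3 hp hτ1 (hτ _) (t := (fun b => t (σ⁻¹ b)) * (Sum.elim (fun _ => s) 1)⁻¹) (by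
    simp only [Pi.mul_apply, Pi.inv_apply, Finset.prod_mul_distrib, Finset.prod_inv_distrib, ← hs]
    simp [ZMod.units_pow_card_sub_one_eq_one, ← Units.val_inj])
  have e1 : (aff γ 1 1 fun b => c (σ⁻¹ b)) * dg γ (fun b => t (σ⁻¹ b)) * hat p γ σ = (aff γ 1 1 fun b => c (σ⁻¹ b)) *
      dg γ ((fun b => t (σ⁻¹ b)) * (Sum.elim (fun _ => s) 1)⁻¹) * bl β γ (mat (s : ZMod p)⁻¹ 0 0 s (by simp)) *
      hat p γ (ρ⁻¹ * σ) := by
    rw [hρ, map_mul, map_mul, map_inv, map_inv]; group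
  rw [e1] at hg ⊢
  refine mul_mem (mul_mem (hM (mul_mem h4 h5)) h1) (hM (hat_mem_M1' hp hτ1 (hτ _) fun _ => ?_))
  have := (Subgroup.mul_mem_cancel_left _ (mul_mem (OppA_le _ _ (mul_mem h4 h5)).1 (OppA_le _ _ hd).1)).1 hg
  rwa [Perm.mem_alternatingGroup, sign_hat, Int.units_pow_eq_pow_mod_two,
    Nat.odd_iff.1 ((Fact.out : p.Prime).odd_of_ne_two h2), pow_one] at this

end Cfsg.Agent.FusE
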