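import Cfsg.Agent.FusE.Crit
import Cfsg.Agent.Root.Max2
import Cfsg.Agent.AutCl.StepT
import Cfsg.Agent.Geom.Torus

/-! Symplectic and unitary groups: the group `EW Φ W` generated by the Eichler maps of a non-degenerate subspace,
its transitivity on singular vectors (`Reach`), generation of the special isometry group of `W` (`mem_EW`) and of
its Sylow `p`-subgroups (`syl_gen`) by Eichler maps. -/

set_option autoImplicit false

namespace Cfsg.Agent.FusE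

open Cfsg.Agent.Geom Cfsg.Agent.AutCl Cfsg.Agent.Root.Mx Cfsg.Agent.Loc Module

variable {F : Type*} [Field F] {σ : F →+* F} {V : Type*} [AddCommGroup V] [Module F V] {Φ : Formed σ V}

/-- Transvections exist: the space is symplectic or unitary. -/
def Tv (Φ : Formed σ V) : Prop := ∃ t ≠ 0, Φ.τ * t = 0 ∧ Φ.ε * t + σ t = 0

theorem Tv.τ (h : Tv Φ) : Φ.τ = 0 := let ⟨_, h0, h1, _⟩ := h; (mul_eq_zero.1 h1).resolve_right h0

theorem Tv.Q (h : Tv Φ) (x : V) : Φ.Q x = 0 := let ⟨_, h1, _⟩ := Φ.trace x; by rw [← h1, h.τ, zero_mul]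

theorem Tv.sing (h : Tv Φ) {x : V} (hx : Φ.B x x = 0) : Φ.Sing x := ⟨h.Q x, hx⟩

theorem Tv.ε_eq {Φ : Formed (RingHom.id F) V} (h : Tv Φ) : Φ.ε = -1 := by
  obtain ⟨t, h0, -, h1⟩ := h
  exact mul_right_cancel₀ h0 (by simp only [RingHom.id_apply] at h1; linear_combination h1)

theorem Tv.sing_all {Φ : Formed (RingHom.id F) V} (h : Tv Φ) (x : V) : Φ.Sing x := h.sing <| by
  obtain ⟨d, -, h1⟩ := Φ.trace x
  rw [← h1, h.ε_eq]; simp

theorem Tv.restrict (h : Tv Φ) (W : Submodule F V) : Tv (Φ.restrict W) := h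

theorem Tv.exists_sing [Finite F] [FiniteDimensional F V] (h : Tv Φ) (h2 : 2 ≤ finrank F V) :
    ∃ x, x ≠ 0 ∧ Φ.Sing x := by
  obtain ⟨x, -, hx⟩ := exists_notMem_of_lt (U := (⊤ : Submodule F V)) (R := ⊥) (by simp; omega)
  rw [Submodule.mem_bot] at hx
  by_cases hσ : σ = RingHom.id F
  · subst hσ; exact ⟨x, hx, h.sing_all x⟩
  obtain ⟨y, hy, hxy⟩ := exists_ne_zero_perp (Φ := Φ) ![x] (by omega)
  have hxy : Φ.B x y = 0 := hxy 0
  by_cases hxx : Φ.B x x = 0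
  · exact ⟨x, hx, h.sing hxx⟩
  obtain ⟨t, ht⟩ := exists_norm_eq hσ Φ.σσ (a := -Φ.B y y / Φ.B x x) (by
    rw [map_div₀, map_neg, div_eq_div_iff (by simpa) hxx]
    linear_combination (-Φ.ε * Φ.B x x) * B_self_eq (Φ := Φ) y +
      (Φ.ε * Φ.B y y) * B_self_eq (Φ := Φ) x +
      (σ (Φ.B y y) * Φ.B x x - Φ.B y y * σ (Φ.B x x)) * Φ.εε)
  refine ⟨t • x + y, fun h => ?_, h.sing ?_⟩
  · have := congrArg (Φ.B x) h
    simp only [map_add, map_smul, hxy, smul_eq_mul, add_zero, map_zero, mul_eq_zero, hxx,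
      or_false] at this
    rw [this] at h; exact hy (by simpa using h)
  · rw [Φ.B_add_left, Φ.B_smul_left]
    simp only [map_add, map_smul, hxy, Φ.B_eq_zero_symm hxy, smul_eq_mul]
    field_simp at ht
    linear_combination ht

/-- The group generated by the Eichler maps of the subspace `W`. -/
def EW (Φ : Formed σ V) (W : Submodule F V) : Subgroup (V ≃ₗ[F] V) :=
  Subgroup.closure {g | ∃ p ∈ W, ∃ a ∈ W, ∃ d, IsE Φ p a d g}

theorem mem_EW_of {W : Submodule F V} {p a : V} {d : F} {g : V ≃ₗ[F] V} (h : IsE Φ p a d g) (hp : p ∈ W)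
    (ha : a ∈ W) : g ∈ EW Φ W := Subgroup.subset_closure ⟨p, hp, a, ha, d, h⟩

theorem EW_le {W : Submodule F V} {X : Subgroup (V ≃ₗ[F] V)}
    (h : ∀ p ∈ W, ∀ a ∈ W, ∀ d g, IsE Φ p a d g → g ∈ X) : EW Φ W ≤ X :=
  (Subgroup.closure_le _).2 fun g ⟨p, hp, a, ha, d, hg⟩ => h p hp a ha d g hg

theorem EW_mono {W W' : Submodule F V} (h : W ≤ W') : EW Φ W ≤ EW Φ W' :=
  EW_le fun _ hp _ ha _ _ hg => mem_EW_of hg (h hp) (h ha)

theorem isE_mem_fix {W : Submodule F V} {p a : V} {d : F} {g : V ≃ₗ[F] V} (h : IsE Φ p a d g) (hp : p ∈ W)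
    (ha : a ∈ W) : g ∈ fix (Φ.perp W) := fun v hv => by
  rw [h.app, Φ.mem_perp.1 hv p hp, Φ.mem_perp.1 hv a ha]; simp

/-- The special isometry group. -/
noncomputable abbrev SI (Φ : Formed σ V) : Subgroup (V ≃ₗ[F] V) := Φ.isom ⊓ SLg F V

theorem isE_mem_SI [Finite F] {p a : V} {d : F} {g : V ≃ₗ[F] V} (h : IsE Φ p a d g) : g ∈ SI Φ :=
  ⟨h.mem_isom, EG_le_SLg (IsE_mem_EG h)⟩

theorem EW_le_SI [Finite F] (W : Submodule F V) : EW Φ W ≤ SI Φ := EW_le fun _ _ _ _ _ _ h => isE_mem_SI h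

theorem EW_le_fix (W : Submodule F V) : EW Φ W ≤ fix (Φ.perp W) := EW_le fun _ hp _ ha _ _ h => isE_mem_fix h hp ha

/-- `u` can be moved to `v` by the Eichler maps of `W`. -/
def Reach (Φ : Formed σ V) (W : Submodule F V) (u v : V) : Prop := ∃ k ∈ EW Φ W, k u = v

namespace Reach
variable {W : Submodule F V} {u v w : V}

theorem symm (h : Reach Φ W u v) : Reach Φ W v u :=
  let ⟨k, hk, e⟩ := h; ⟨k⁻¹, inv_mem hk, by rw [← e]; exact k.symm_apply_apply u⟩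

theorem trans (h : Reach Φ W u v) (h' : Reach Φ W v w) : Reach Φ W u w :=
  let ⟨k, hk, e⟩ := h; let ⟨k', hk', e'⟩ := h'; ⟨k' * k, mul_mem hk' hk, by rw [LinearEquiv.mul_apply, e, e']⟩

theorem smul (h : Reach Φ W u v) (c : F) : Reach Φ W (c • u) (c • v) :=
  let ⟨k, hk, e⟩ := h; ⟨k, hk, by rw [map_smul, e]⟩

theorem congr {u' v' : V} (h : Reach Φ W u v) (h1 : u = u') (h2 : v = v') : Reach Φ W u' v' := h1 ▸ h2 ▸ h

end Reach

variable [FiniteDimensional F V] {W : Submodule F V}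

theorem exists_isE_mem (hn : Φ.Nondeg) {p r z : V} (hr : Φ.IsPair p r) (hz : Φ.IsPair p z) (hp : p ∈ W)
    (hrW : r ∈ W) (hzW : z ∈ W) : ∃ a ∈ W, ∃ d g, IsE Φ p a d g ∧ g r = z := by
  obtain ⟨a, ha, d, g, hg, e⟩ := exists_isE_apply hn hr hz
  refine ⟨a, ?_, d, g, hg, e⟩
  have h1 := hg.apply_r hr (Φ.mem_pairPerp.1 ha).2
  have : a = Φ.ε • (r - d • p - z) := by
    rw [← e, h1, sub_sub_cancel, smul_smul, Φ.εε, one_smul]
  rw [this]; exact W.smul_mem _ (W.sub_mem (W.sub_mem hrW (W.smul_mem _ hp)) hzW)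

theorem reach_opp (hn : Φ.Nondeg) {p x y : V} (hp : p ∈ W) (hx : x ∈ W) (hy : y ∈ W) (sp : Φ.Sing p)
    (sx : Φ.Sing x) (sy : Φ.Sing y) (h1 : Φ.B p x ≠ 0) (h2 : Φ.B p y ≠ 0) :
    Reach Φ W x ((Φ.B p x / Φ.B p y) • y) := by
  obtain ⟨a, ha, d, g, hg, e⟩ := exists_isE_mem hn (isPair_smul sp sx h1) (isPair_smul sp sy h2) hp
    (W.smul_mem _ hx) (W.smul_mem _ hy)
  exact (Reach.smul ⟨g, mem_EW_of hg hp ha, e⟩ (Φ.B p x)).congr (by rw [smul_inv_smul₀ h1])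
    (by rw [smul_smul, div_eq_mul_inv])

theorem reach_pt [Finite F] (hn : Φ.Nondeg) (hT : Tv Φ) (hW : (Φ.restrict W).Nondeg) {x y : V} (hx : x ∈ W)
    (hy : y ∈ W) (sx : Φ.Sing x) (sy : Φ.Sing y) (hx0 : x ≠ 0) (hy0 : y ≠ 0) :
    ∃ c ≠ (0 : F), Reach Φ W x (c • y) := by
  obtain ⟨w, hw, sw, h1, h2⟩ : ∃ w ∈ W, Φ.Sing w ∧ Φ.B x w ≠ 0 ∧ Φ.B y w ≠ 0 := by
    by_cases h : Φ.B y x = 0
    · exact exists_sing_both hn hW hx hx0 sx hy hy0 h
    obtain ⟨t, ht, h1, h2⟩ := hT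
    have h' : Φ.B x y ≠ 0 := fun e => h (Φ.B_eq_zero_symm e)
    exact ⟨_, W.add_mem hx (W.smul_mem _ (W.smul_mem _ hy)), sing_add_smul (isPair_smul sx sy h') h1 h2,
      by simp [sx.2, h', ht], by simp [sy.2, h]⟩
  have h1' : Φ.B w x ≠ 0 := fun e => h1 (Φ.B_eq_zero_symm e)
  have h2' : Φ.B w y ≠ 0 := fun e => h2 (Φ.B_eq_zero_symm e)
  exact ⟨_, div_ne_zero h1' h2', reach_opp hn hw hx hy sw sx sy h1' h2'⟩

theorem reach_neg (hn : Φ.Nondeg) (hT : Tv Φ) {x r a : V} (hr : Φ.IsPair x r) (hx : x ∈ W) (hrW : r ∈ W)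
    (ha : a ∈ W) (hap : a ∈ Φ.pairPerp x r) {d : F} (hd : d ≠ 0) (hB : Φ.ε * d + σ d = Φ.B a a) :
    Reach Φ W (d • x) (-r) := by
  obtain ⟨h1, h2⟩ := Φ.mem_pairPerp.1 hap
  obtain ⟨g, hg⟩ := exists_isE hn hr.se h1 (by rw [hT.τ, hT.Q, zero_mul]) hB
  have e := hg.apply_r hr h2
  have hz : Φ.B r (g r) = -(d * Φ.ε) := by rw [e]; simp [hr.sf.2, hr.fe, h2]
  have := reach_opp hn hrW hx (y := g r) (e ▸ W.sub_mem (W.sub_mem hrW (W.smul_mem _ hx)) (W.smul_mem _ ha))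
    hr.sf hr.se (hr.sf.map hg.mem_isom) (by rw [hr.fe]; exact Φ.ε_ne_zero) (by simp [hz, hd, Φ.ε_ne_zero])
  refine (this.smul d).trans ((Reach.smul (u := r) ⟨g, mem_EW_of hg hx ha, rfl⟩ (-1)).symm.congr ?_ (by simp))
  rw [smul_smul, hz, hr.fe]; congr 1; field_simp [Φ.ε_ne_zero]

theorem nondeg_inf (hn : Φ.Nondeg) (hW : (Φ.restrict W).Nondeg) {X : Submodule F V} (hX : X ≤ W)
    (hXn : (Φ.restrict X).Nondeg) : (Φ.restrict (W ⊓ Φ.perp X)).Nondeg :=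
  Φ.restrict_nondeg_iff'.2 fun u hu h => Φ.restrict_nondeg_iff'.1 hW u hu.1 fun v hv => by
    obtain ⟨a, b, rfl⟩ := exists_add_of_isCompl (hn.isCompl_perp hXn) v
    rw [map_add, Φ.mem_perp'.1 hu.2 a a.2, h b ⟨(W.add_mem_iff_right (hX a.2)).1 hv, b.2⟩, add_zero]

theorem perp_inf_perp (hn : Φ.Nondeg) (W X : Submodule F V) : Φ.perp (W ⊓ Φ.perp X) = Φ.perp W ⊔ X := by
  rw [hn.perp_inf, hn.perp_perp]

omit [FiniteDimensional F V] in
theorem perp_pair (x r : V) : Φ.perp ((F ∙ x) ⊔ F ∙ r) = Φ.pairPerp x r := by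
  ext v; rw [Φ.perp_sup, Submodule.mem_inf, Φ.mem_perp_span_singleton, Φ.mem_perp_span_singleton, Φ.mem_pairPerp]

omit [FiniteDimensional F V] in
theorem pair_le {x r : V} (hx : x ∈ W) (hr : r ∈ W) : (F ∙ x) ⊔ (F ∙ r) ≤ W :=
  sup_le ((Submodule.span_singleton_le_iff_mem _ _).2 hx) ((Submodule.span_singleton_le_iff_mem _ _).2 hr)

theorem nondeg_pair (hn : Φ.Nondeg) (hW : (Φ.restrict W).Nondeg) {x r : V} (h : Φ.IsPair x r) (hx : x ∈ W)
    (hr : r ∈ W) : (Φ.restrict (W ⊓ Φ.pairPerp x r)).Nondeg :=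
  perp_pair (Φ := Φ) x r ▸ nondeg_inf hn hW (pair_le hx hr) h.nondeg_span

theorem mem_fix_pair (hn : Φ.Nondeg) {x r : V} {g : V ≃ₗ[F] V} :
    g ∈ fix (Φ.perp (W ⊓ Φ.pairPerp x r)) ↔ g ∈ fix (Φ.perp W) ∧ g x = x ∧ g r = r := by
  rw [← perp_pair, perp_inf_perp hn, fix_sup, fix_sup]
  simp [mem_fix_span]

theorem finrank_pair_lt {x r : V} (h : Φ.IsPair x r) (hr : r ∈ W) :
    finrank F ↥(W ⊓ Φ.pairPerp x r) < finrank F W :=
  Submodule.finrank_lt_finrank_of_lt (lt_of_le_of_ne inf_le_left fun e => by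
    have := (Φ.mem_pairPerp.1 (e.ge hr).2).1
    rw [h.ef] at this; exact one_ne_zero this)

omit [FiniteDimensional F V] in
theorem exists_aniso (hW : (Φ.restrict W).Nondeg) (h0 : W ≠ ⊥) {c : F} (hc : σ c ≠ c) : ∃ w ∈ W, Φ.B w w ≠ 0 := by
  by_contra! h
  obtain ⟨u, hu, hu0⟩ := Submodule.exists_mem_ne_zero_of_ne_bot h0
  obtain ⟨v, hv⟩ := hW.exists_eq_one (x := ⟨u, hu⟩) fun e => hu0 (congrArg Subtype.val e)
  have hv : Φ.B u v = 1 := hv
  have key : ∀ s : F, s + Φ.ε * σ s = 0 := fun s => by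
    have := h _ (W.add_mem hu (W.smul_mem s v.2))
    rw [Φ.B_add_left, Φ.B_smul_left] at this
    simp only [map_add, map_smul, h u hu, h v v.2, Φ.symm u v, hv, smul_eq_mul, map_one] at this
    linear_combination this
  have h1 := key 1
  rw [map_one] at h1
  exact hc (by linear_combination σ c * h1 - key c)

theorem map_mem_of_fix (hn : Φ.Nondeg) {g : V ≃ₗ[F] V} (hg : g ∈ Φ.isom) (hf : g ∈ fix (Φ.perp W)) {v : V}
    (hv : v ∈ W) : g v ∈ W := by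
  have := Formed.perp_mem_stab hg (fix_le_stab _ hf)
  rw [hn.perp_perp] at this
  exact (this v).1 hv

theorem reach_smul [Finite F] (hn : Φ.Nondeg) (hT : Tv Φ) (hW : (Φ.restrict W).Nondeg) {x r : V} (hr : Φ.IsPair x r)
    (hx : x ∈ W) (hrW : r ∈ W) {c : F} (hc : c ≠ 0) (h : σ c = c ∨ W ⊓ Φ.pairPerp x r ≠ ⊥) :
    Reach Φ W x (c • x) := by
  obtain ⟨t, ht, -, h2⟩ := id hT
  have h0 := reach_neg hn hT hr hx hrW W.zero_mem (Submodule.zero_mem _) ht (by simpa using h2)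
  obtain ⟨a, ha, hap, hB⟩ : ∃ a ∈ W, a ∈ Φ.pairPerp x r ∧ Φ.ε * (c * t) + σ (c * t) = Φ.B a a := by
    by_cases hσ : σ c = c
    · exact ⟨0, W.zero_mem, Submodule.zero_mem _, by rw [map_mul, hσ]; simp; linear_combination c * h2⟩
    obtain ⟨w, ⟨hw, hwp⟩, hw0⟩ := exists_aniso (nondeg_pair hn hW hr hx hrW) (h.resolve_left hσ) hσ
    obtain ⟨s, hs⟩ := exists_norm_eq (σ := σ) (by rintro rfl; exact hσ rfl) Φ.σσ
      (a := (Φ.ε * (c * t) + σ (c * t)) / Φ.B w w) (by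
      rw [map_div₀, map_add, map_mul, Φ.σσ, Φ.σε, div_eq_div_iff (by simpa) hw0]
      linear_combination (-Φ.ε * (Φ.ε * (c * t) + σ (c * t))) * B_self_eq (Φ := Φ) w +
        ((Φ.ε * (c * t) + σ (c * t)) * σ (Φ.B w w) - c * t * Φ.B w w) * Φ.εε)
    exact ⟨s • w, W.smul_mem _ hw, Submodule.smul_mem _ _ hwp, by
      rw [Φ.B_smul_left, Φ.B_smul_right, ← mul_assoc (σ s), hs, div_mul_cancel₀ _ hw0]⟩
  have h1 := reach_neg hn hT hr hx hrW ha hap (mul_ne_zero hc ht) hB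
  exact ((h0.trans h1.symm).smul t⁻¹).congr (by rw [inv_smul_smul₀ ht]) (by rw [smul_smul]; congr 1; field_simp)

theorem adjust (hn : Φ.Nondeg) {x r : V} (hr : Φ.IsPair x r) (hx : x ∈ W) (hrW : r ∈ W) {g : V ≃ₗ[F] V}
    (hg : g ∈ Φ.isom) (hgr : g r ∈ W) {c : F} (hc : g x = c • x) :
    ∃ a ∈ W, ∃ d e, IsE Φ x a d e ∧ (e⁻¹ * g) x = c • x ∧ (e⁻¹ * g) r = (σ c)⁻¹ • r := by
  have h1 : σ c * Φ.B x (g r) = 1 := by rw [← Φ.B_smul_left, ← hc, (Φ.mem_isom.1 hg).1, hr.ef]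
  have hc0 : σ c ≠ 0 := left_ne_zero_of_mul_eq_one h1
  obtain ⟨a, ha, d, e, he, h2⟩ := exists_isE_mem hn hr (z := σ c • g r) ⟨hr.se, (hr.sf.map hg).smul _, by simpa⟩
    hx hrW (W.smul_mem _ hgr)
  refine ⟨a, ha, d, e, he, by rw [LinearEquiv.mul_apply, hc, map_smul, he.inv.apply_p], ?_⟩
  rw [LinearEquiv.mul_apply, ← inv_smul_smul₀ hc0 (g r), ← h2, map_smul]
  exact congrArg _ (e.symm_apply_apply r)

/-- The special isometry group of a non-degenerate subspace is generated by its Eichler maps. -/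
theorem mem_EW [Finite F] (hn : Φ.Nondeg) (hT : Tv Φ) (n : ℕ) : ∀ W : Submodule F V, finrank F W = n →
    (Φ.restrict W).Nondeg → ∀ g ∈ SI Φ, g ∈ fix (Φ.perp W) → g ∈ EW Φ W := by
  induction n using Nat.strong_induction_on with | _ n ih => ?_
  rintro W rfl hW g hg hf
  by_cases hs : ∃ x ∈ W, x ≠ 0 ∧ Φ.Sing x
  · obtain ⟨x, hx, hx0, sx⟩ := hs
    obtain ⟨r, hrW, hr⟩ := exists_pair_mem hn hW hx hx0 sx
    have step : ∀ k ∈ EW Φ W, ∀ c : F, (k * g) x = c • x → ∃ k ∈ EW Φ W, k * g ∈ SI Φ ∧ k * g ∈ fix (Φ.perp W) ∧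
        (k * g) x = c • x ∧ (k * g) r = (σ c)⁻¹ • r := fun k hk c hc => by
      have h1 := mul_mem (EW_le_SI W hk) hg
      have h2 := mul_mem (EW_le_fix W hk) hf
      obtain ⟨a, ha, d, e, he, h3⟩ := adjust hn hr hx hrW h1.1 (map_mem_of_fix hn h1.1 h2 hrW) hc
      have h4 := mul_mem (inv_mem (mem_EW_of he hx ha)) hk
      exact ⟨_, h4, mul_mem (EW_le_SI W h4) hg, mul_mem (EW_le_fix W h4) hf, by rwa [mul_assoc]⟩
    obtain ⟨c, hc, k, hk, e⟩ := reach_pt hn hT hW (map_mem_of_fix hn hg.1 hf hx) hx (sx.map hg.1) sx (by simpa) hx0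
    obtain ⟨k, hk, h1, h2, h3, h4⟩ := step k hk c e
    obtain ⟨h, hh, e⟩ := reach_smul hn hT hW hr hx hrW hc (or_iff_not_imp_right.2 fun h0 => by
      rw [not_not] at h0
      have : k * g = (hr.torus (Units.mk0 c hc)).1 := isom_ext_pair hr (by rw [h3, hr.torus_left]; rfl)
        (by rw [h4, hr.torus_right]; rfl) fun w hw => by
          obtain ⟨a, b, rfl⟩ := exists_add_of_isCompl (hn.isCompl_perp hW) w
          have hb : b.1 ∈ Φ.pairPerp x r := Φ.mem_pairPerp.2 ⟨Φ.mem_perp.1 b.2 x hx, Φ.mem_perp.1 b.2 r hrW⟩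
          have ha : a.1 = 0 := h0.le ⟨a.2, (Submodule.add_mem_iff_left _ hb).1 hw⟩
          rw [hr.torus_perp _ hw, ha, zero_add, h2 b b.2]
      have h5 := mem_SLg.1 h1.2
      rw [this, hr.det_torus] at h5
      exact ((mul_inv_eq_one₀ (by simpa)).1 h5).symm)
    obtain ⟨k, hk, h1, h2, h3, h4⟩ := step (h⁻¹ * k) (mul_mem (inv_mem hh) hk) 1 (by
      rw [mul_assoc, LinearEquiv.mul_apply, h3, ← e, one_smul]; exact h.symm_apply_apply x)
    exact (mul_mem_cancel_left hk).1 (EW_mono inf_le_left (ih _ (finrank_pair_lt hr hrW) _ rfl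
      (nondeg_pair hn hW hr hx hrW) _ h1 ((mem_fix_pair hn).2 ⟨h2, by simpa using h3, by simpa using h4⟩)))
  suffices g = 1 from this ▸ one_mem _
  have h1 : finrank F W ≤ 1 := by
    by_contra! h
    obtain ⟨x, hx, sx⟩ := (hT.restrict W).exists_sing h
    exact hs ⟨x, x.2, fun e => hx (Subtype.ext e), sx⟩
  obtain ⟨w, hw⟩ := finrank_le_one_iff.1 h1
  have ext : g w = w → g = 1 := fun h => LinearEquiv.ext fun v => by
    obtain ⟨a, b, rfl⟩ := exists_add_of_isCompl (hn.isCompl_perp hW) v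
    obtain ⟨s, rfl⟩ := hw a
    simp [h, hf b b.2]
  by_cases hw0 : w.1 = 0
  · exact ext (by simp [hw0])
  have hww : Φ.B w w ≠ 0 := fun e => hs ⟨w, w.2, hw0, hT.sing e⟩
  obtain ⟨c, hc⟩ := hw ⟨g w, map_mem_of_fix hn hg.1 hf w.2⟩
  have hc : c • w.1 = g w := congrArg Subtype.val hc
  have h2 : (g : V →ₗ[F] V) = LinearMap.transvection (((c - 1) / Φ.B w w) • Φ.B w) w := LinearMap.ext fun v => by
    obtain ⟨a, b, rfl⟩ := exists_add_of_isCompl (hn.isCompl_perp hW) v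
    obtain ⟨s, rfl⟩ := hw a
    simp only [LinearMap.transvection.apply, LinearEquiv.coe_coe, map_add, Submodule.coe_smul, map_smul, ← hc,
      hf b b.2, LinearMap.smul_apply, Φ.mem_perp.1 b.2 w w.2, smul_eq_mul]
    match_scalars <;> field_simp <;> ring
  have h3 := mem_SLg.1 hg.2
  rw [h2, LinearMap.transvection.det, LinearMap.smul_apply, smul_eq_mul, div_mul_cancel₀ _ hww] at h3
  exact ext (by rw [← hc, show c = 1 by linear_combination h3, one_smul])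

theorem mem_normalizer_QP [Finite F] {x : V} (hx : Φ.Sing x) {g : V ≃ₗ[F] V} (hg : g ∈ Φ.isom) (h : g x = x) :
    g ∈ Subgroup.normalizer (QP Φ x hx : Set (V ≃ₗ[F] V)) := by
  haveI : Finite V := Module.finite_of_finite F
  haveI : Finite (V ≃ₗ[F] V) := DFunLike.finite _
  exact mem_normalizer_of_cj_le (cj_le_iff_forall.2 fun e ⟨a, d, he⟩ => ⟨g a, d, h ▸ he.conj hg⟩)

/-- A Sylow `p`-subgroup of the isometry group of a non-degenerate subspace is generated by its Eichler maps. -/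
theorem syl_gen [Finite F] {p : ℕ} [Fact p.Prime] [CharP F p] (hn : Φ.Nondeg) (hT : Tv Φ)
    {T : Subgroup (V ≃ₗ[F] V)} (n : ℕ) : ∀ W : Submodule F V, finrank F W = n → (Φ.restrict W).Nondeg →
    ∀ P, SylIn p P (Φ.isom ⊓ fix (Φ.perp W)) → (∀ x a d g, IsE Φ x a d g → g ∈ P → g ∈ T) → P ≤ T := by
  haveI : Finite V := Module.finite_of_finite F
  induction n using Nat.strong_induction_on with | _ n ih => ?_
  rintro W rfl hW P hP h
  by_cases h0 : W = ⊥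
  · have := hP.le.trans inf_le_right
    rw [h0, Φ.perp_bot, fix_top] at this
    exact this.trans bot_le
  obtain ⟨x, hx, hx0, hf⟩ := exists_fixed_mod hP.pg (U := ⊥) (W := W) (by simp)
    (fun s hs u hu => map_mem_of_fix hn (hP.le hs).1 (hP.le hs).2 hu) (by simpa using h0)
  simp only [Submodule.mem_bot, sub_eq_zero] at hx0 hf
  by_cases sx : Φ.Sing x
  swap
  · have hxx : Φ.B x x ≠ 0 := fun e => sx (hT.sing e)
    have hX : (Φ.restrict (F ∙ x)).Nondeg := Φ.restrict_nondeg_iff'.2 fun u hu h => by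
      obtain ⟨c, rfl⟩ := Submodule.mem_span_singleton.1 hu
      have := h x (Submodule.mem_span_singleton_self x)
      rw [Φ.B_smul_left, mul_eq_zero, or_iff_left hxx, map_eq_zero] at this
      rw [this, zero_smul]
    refine ih _ (Submodule.finrank_lt_finrank_of_lt (lt_of_le_of_ne inf_le_left fun e => hxx
      (Φ.mem_perp_span_singleton.1 (e.ge hx).2))) (W ⊓ Φ.perp (F ∙ x)) rfl
      (nondeg_inf hn hW ((Submodule.span_singleton_le_iff_mem _ _).2 hx) hX) P ?_ h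
    rw [perp_inf_perp hn, fix_sup, ← inf_assoc]
    exact hP.mono (le_inf hP.le fun g hg => mem_fix_span.2 (by simpa using hf g hg)) inf_le_left
  obtain ⟨r, hrW, hr⟩ := exists_pair_mem hn hW hx hx0 sx
  have hQn : ∀ g ∈ Φ.isom ⊓ fix (Φ.perp W), g x = x →
      g ∈ Subgroup.normalizer ((QP Φ x sx ⊓ fix (Φ.perp W) : Subgroup (V ≃ₗ[F] V)) : Set (V ≃ₗ[F] V)) :=
    fun g hg hgx => le_normalizer_inf (L := Subgroup.zpowers g) (by simpa using mem_normalizer_QP sx hg.1 hgx)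
      (le_normalizer_of_le (by simpa using hg.2)) (Subgroup.mem_zpowers g)
  have hQp : IsPGroup p ↥(QP Φ x sx ⊓ fix (Φ.perp W)) := (isPGroup_QP p sx).to_le inf_le_left
  have hQl : QP Φ x sx ⊓ fix (Φ.perp W) ≤ Φ.isom ⊓ fix (Φ.perp W) :=
    inf_le_inf_right _ fun _ ⟨_, _, h⟩ => h.mem_isom
  have hQ := hP.le_of_le_normalizer hQl hQp fun g hg => hQn g (hP.le hg) (hf g hg)
  have dec : ∀ g ∈ P, ∃ e ∈ QP Φ x sx ⊓ fix (Φ.perp W), e⁻¹ * g ∈ P ⊓ fix (Φ.perp (W ⊓ Φ.pairPerp x r)) := by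
    intro g hg
    obtain ⟨a, ha, d, e, he, h1, h2⟩ := adjust hn hr hx hrW (hP.le hg).1
      (map_mem_of_fix hn (hP.le hg).1 (hP.le hg).2 hrW) (c := 1) (by simpa using hf g hg)
    have h3 : e ∈ QP Φ x sx ⊓ fix (Φ.perp W) := ⟨⟨a, d, he⟩, isE_mem_fix he hx ha⟩
    have h4 := mul_mem (inv_mem (hQ h3)) hg
    exact ⟨e, h3, h4, (mem_fix_pair hn).2 ⟨(hP.le h4).2, by simpa using h1, by simpa using h2⟩⟩
  have hP' : SylIn p (P ⊓ fix (Φ.perp (W ⊓ Φ.pairPerp x r))) (Φ.isom ⊓ fix (Φ.perp (W ⊓ Φ.pairPerp x r))) := by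
    refine ⟨inf_le_inf_right _ (hP.le.trans inf_le_left), hP.pg.to_le inf_le_left, fun R hR hRp hle =>
      le_antisymm (le_inf ?_ (hR.trans inf_le_right)) hle⟩
    have hR' : R ≤ Φ.isom ⊓ fix (Φ.perp W) := fun g hg => ⟨(hR hg).1, ((mem_fix_pair hn).1 (hR hg).2).1⟩
    have := hP.max (R ⊔ QP Φ x sx ⊓ fix (Φ.perp W)) (sup_le hR' hQl) (hRp.to_sup_of_normal_right' hQp fun g hg =>
      hQn g (hR' hg) ((mem_fix_pair hn).1 (hR hg).2).2.1) fun g hg => by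
        obtain ⟨e, he, h1⟩ := dec g hg
        exact (mul_mem_cancel_left (inv_mem (Subgroup.mem_sup_right he))).1 (Subgroup.mem_sup_left (hle h1))
    rw [← this]; exact le_sup_left
  have := ih _ (finrank_pair_lt hr hrW) _ rfl (nondeg_pair hn hW hr hx hrW) _ hP'
    fun x a d g he hg => h x a d g he hg.1
  intro g hg
  obtain ⟨e, he, h1⟩ := dec g hg
  obtain ⟨a, d, he'⟩ := he.1
  exact (mul_mem_cancel_left (inv_mem (h _ _ _ _ he' (hQ he)))).1 (this h1)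

end Cfsg.Agent.FusE
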