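import Cfsg.Agent.FusE.Form1

/-! The defining-characteristic fusion system of a symplectic or unitary group of Witt index at least two is simple
(`simple_SI`). -/

set_option autoImplicit false

namespace Cfsg.Agent.FusE

open Cfsg.Agent.Geom Cfsg.Agent.AutCl Cfsg.Agent.Root.Mx Cfsg.Agent.Loc Cfsg.Agent.Fus Module

variable {F : Type*} [Field F] {σ : F →+* F} {V : Type*} [AddCommGroup V] [Module F V] {Φ : Formed σ V}

theorem pow_eq_one_of_cube {p : ℕ} [Fact p.Prime] [CharP F p] {g : V ≃ₗ[F] V}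
    (h : ((g : Module.End F V) - 1) ^ 3 = 0) : g ^ p ^ 2 = 1 := by
  rcases subsingleton_or_nontrivial V with _ | _
  · exact Subsingleton.elim _ _
  haveI : CharP (Module.End F V) p := charP_of_injective_algebraMap (algebraMap F _).injective p
  have h1 := sub_pow_char_pow_of_commute p 2 (Commute.one_right (g : Module.End F V))
  rw [pow_eq_zero_of_le (by nlinarith [(Fact.out : p.Prime).two_le]) h, one_pow, eq_comm, sub_eq_zero] at h1
  exact LinearEquiv.toLinearMap_injective ((map_pow (LinearEquiv.automorphismGroup.toLinearMapMonoidHom) g _).trans h1)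

/-- The unipotent radical of the stabiliser of a totally singular subspace. -/
def Rad (Φ : Formed σ V) (U : Submodule F V) : Subgroup (V ≃ₗ[F] V) where
  carrier := {g | g ∈ Φ.isom ∧ (∀ u ∈ U, g u = u) ∧ ∀ v ∈ Φ.perp U, g v - v ∈ U}
  one_mem' := ⟨one_mem _, fun _ _ => rfl, fun _ _ => by simp⟩
  mul_mem' := fun {a b} ha hb => ⟨mul_mem ha.1 hb.1, fun u hu => by rw [LinearEquiv.mul_apply, hb.2.1 u hu, ha.2.1 u hu],
    fun v hv => by
      have := U.add_mem (hb.2.2 v hv) (ha.2.2 v hv)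
      rwa [← ha.2.1 _ (hb.2.2 v hv), map_sub, sub_add_sub_cancel] at this⟩
  inv_mem' := fun {a} ha => ⟨inv_mem ha.1, fun u hu => a.symm_apply_eq.2 (ha.2.1 u hu).symm, fun v hv => by
    have h1 : a⁻¹ (a v - v) = a v - v := a.symm_apply_eq.2 (ha.2.1 _ (ha.2.2 v hv)).symm
    have h2 : a⁻¹ (a v) = v := a.symm_apply_apply v
    have := U.neg_mem (ha.2.2 v hv)
    rwa [← h1, map_sub, h2, neg_sub] at this⟩

theorem isPGroup_Rad (p : ℕ) [Fact p.Prime] [CharP F p] (U : Submodule F V) : IsPGroup p (Rad Φ U) :=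
  fun ⟨g, h1, h2, h3⟩ => ⟨2, Subtype.ext (pow_eq_one_of_cube (LinearMap.ext fun v => by
    have h4 : g v - v ∈ Φ.perp U := Φ.mem_perp.2 fun u hu => by
      rw [map_sub, ← (Φ.mem_isom.1 h1).1 u v, h2 u hu, sub_self]
    exact sub_eq_zero.2 (h2 _ (h3 _ h4))))⟩

theorem isE_mem_Rad {U : Submodule F V} (hU : U ≤ Φ.perp U) {x b : V} {d : F} {g : V ≃ₗ[F] V}
    (h : IsE Φ x b d g) (hx : x ∈ U) (hb : b ∈ Φ.perp U) : g ∈ Rad Φ U :=
  ⟨h.mem_isom, fun u hu => by rw [h.apply_perp (Φ.mem_perp.1 (hU hu) x hx), Φ.mem_perp'.1 hb u hu]; simp,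
    fun v hv => by rw [h.apply_perp (Φ.mem_perp.1 hv x hx), add_sub_cancel_left]; exact U.smul_mem _ hx⟩

variable [Finite F] [FiniteDimensional F V]

theorem finite_equiv : Finite (V ≃ₗ[F] V) :=
  haveI : Finite V := Module.finite_of_finite F
  DFunLike.finite _

theorem mem_normalizer_Rad {U : Submodule F V} {g : V ≃ₗ[F] V} (hg : g ∈ Φ.isom) (h : ∀ u ∈ U, g u ∈ U) :
    g ∈ Subgroup.normalizer (Rad Φ U : Set (V ≃ₗ[F] V)) := by
  haveI := finite_equiv (F := F) (V := V)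
  have h1 := inv_mem (mem_stab_of_le h)
  refine mem_normalizer_of_cj_le (cj_le_iff_forall.2 fun e he => ⟨mul_mem (mul_mem hg he.1) (inv_mem hg),
    fun u hu => ?_, fun v hv => ?_⟩)
  · rw [LinearEquiv.mul_apply, LinearEquiv.mul_apply, he.2.1 _ ((h1 u).1 hu)]; exact g.apply_symm_apply u
  · have := h _ (he.2.2 _ ((Formed.perp_mem_stab (inv_mem hg) h1 v).1 hv))
    rwa [map_sub, show g (g⁻¹ v) = v from g.apply_symm_apply v] at this

theorem cent_Rad (p : ℕ) [Fact p.Prime] [CharP F p] (hn : Φ.Nondeg) (hT : Tv Φ) {U : Submodule F V}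
    (hU : U ≤ Φ.perp U) {x r : V} (hr : Φ.IsPair x r) (hx : x ∈ U) : Cent p (SI Φ) (Rad Φ U) := by
  intro g hg hc hu
  have key : ∀ z ∈ U, ∀ b ∈ Φ.perp U, ∀ d e, IsE Φ z b d e → IsE Φ (g z) (g b) d e := fun z hz b hb d e he => by
    have := he.conj hg.1
    rwa [← hc e (isE_mem_Rad hU he hz hb), mul_inv_cancel_right] at this
  have h1 : ∀ z ∈ U, g z = z := fun z hz => by
    rcases eq_or_ne z 0 with rfl | hz0
    · simp
    obtain ⟨t, ht, h1, h2⟩ := id hT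
    obtain ⟨e, he⟩ := exists_isE hn (hT.sing (Φ.mem_perp.1 (hU hz) z hz)) (a := 0) (d := t) (by simp)
      (by simpa using h1) (by simpa using h2)
    have h3 := key z hz 0 (zero_mem _) t e he
    rw [map_zero] at h3
    obtain ⟨v, hv⟩ := hn.exists_eq_one hz0
    have h4 := (he.app0 v).symm.trans (h3.app0 v)
    rw [sub_right_inj, hv, mul_one, mul_smul, smul_right_inj ht] at h4
    have h5 : Φ.B (g z) v ≠ 0 := fun e => hz0 (by rw [h4, e, zero_smul])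
    have h6 : g z = (Φ.B (g z) v)⁻¹ • z := by rw [eq_inv_smul_iff₀ h5, ← h4]
    rw [h6, Unip.eig0 hu hz0 h6, one_smul]
  refine ⟨hg.1, h1, fun b hb => ?_⟩
  obtain ⟨d, e, he⟩ := exists_isE' hn hr.se (Φ.mem_perp.1 hb x hx)
  have h3 := key x hx b hb d e he
  rw [h1 x hx] at h3
  have h4 := (he.app r).symm.trans (h3.app r)
  have : g b - b = (Φ.ε * (Φ.B (g b) r - Φ.B b r)) • x := by
    rw [hr.ef] at h4
    linear_combination (norm := module) Φ.ε • h4 - Φ.εε • (g b - b)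
  rw [this]; exact U.smul_mem _ hx

theorem reach_top (hn : Φ.Nondeg) (hT : Tv Φ) (h3 : 3 ≤ finrank F V) {u v : V} (su : Φ.Sing u) (sv : Φ.Sing v)
    (hu : u ≠ 0) (hv : v ≠ 0) : ∃ k ∈ SI Φ, k u = v := by
  obtain ⟨c, hc, h⟩ := reach_pt hn hT (nondeg_top hn) trivial trivial su sv hu hv
  obtain ⟨r, hr⟩ := hn.exists_isPair hv sv
  obtain ⟨w, hw, hw0⟩ := exists_mem_pairPerp (Φ := Φ) h3 v r
  obtain ⟨k, hk, e⟩ := h.trans (reach_smul hn hT (nondeg_top hn) hr trivial trivial hc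
    (Or.inr fun e => hw0 (e.le ⟨trivial, hw⟩))).symm
  exact ⟨k, EW_le_SI _ hk, e⟩

section A
variable {S T : Subgroup (V ≃ₗ[F] V)} {x r : V}

theorem SC.hasE (h : SC (SI Φ) S T) (hr : Φ.IsPair x r) (hQ : QP Φ x hr.se ≤ S) {a : V} {d c : F}
    (ha : HasE Φ T x a d) {k : V ≃ₗ[F] V} (hk : k ∈ SI Φ) (hc : c ≠ 0) (hx : k x = c • x) :
    HasE Φ T x (σ c • k a) (d * (c * σ c)) := by
  obtain ⟨g, hg, he⟩ := ha
  have := (hx ▸ he.conj hk.1).of_smul hr.se hc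
  exact ⟨_, h g hg k hk (hQ ⟨_, _, this⟩), this⟩

theorem SC.hasE' (h : SC (SI Φ) S T) (hr : Φ.IsPair x r) (hQ : QP Φ x hr.se ≤ S) {a b : V} {d : F}
    (ha : HasE Φ T x a d) (hab : Reach Φ (Φ.pairPerp x r) a b) : HasE Φ T x b d := by
  obtain ⟨k, hk, rfl⟩ := hab
  simpa using h.hasE hr hQ ha (EW_le_SI _ hk) one_ne_zero (by
    rw [one_smul]; exact EW_le_fix _ hk x (Φ.mem_perp'.2 fun u hu => (Φ.mem_pairPerp.1 hu).1))

theorem exists_tv {p : ℕ} [Fact p.Prime] [CharP F p] (hn : Φ.Nondeg) (hT : Tv Φ) (hS : SylIn p S (SI Φ))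
    (hr : Φ.IsPair x r) (hQ : QP Φ x hr.se ≤ S) {y y' : V} (hy : Φ.IsPair y y') (h1 : y ∈ Φ.pairPerp x r)
    (h2 : y' ∈ Φ.pairPerp x r) (hex : (∀ c, σ c = c) → ∃ a ∈ Φ.pairPerp x r, ∃ b ∈ Φ.pairPerp x r,
      a ≠ 0 ∧ b ≠ 0 ∧ a + b ≠ 0 ∧ Φ.B a b = 0) (hTS : T ≤ S) (h0 : T ≠ ⊥) (h : SC (SI Φ) S T) :
    ∃ d ≠ 0, HasE Φ T x 0 d := by
  haveI := finite_equiv (F := F) (V := V)
  obtain ⟨z, hz, hz1, hc⟩ := h.exists_central hS hTS h0
  obtain ⟨k, hk⟩ := hS.pg ⟨z, hTS hz⟩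
  obtain ⟨a, ha, d, he⟩ := isE_of_comm (ℓ := p) hn hr h1 hy.left_ne_zero (hS.le (hTS hz)).1
    ⟨k, congrArg Subtype.val hk⟩ fun a d e he => hc e (hQ ⟨a, d, he⟩)
  rcases eq_or_ne a 0 with rfl | ha0
  · exact ⟨d, by rintro rfl; exact hz1 (he.ext (isE_one hr.se)), z, hz, he⟩
  have hW := hr.nondeg_pairPerp hn
  by_cases hσ : σ = RingHom.id F
  · subst hσ
    have all : ∀ b ∈ Φ.pairPerp x r, b ≠ 0 → HasE Φ T x b d := fun b hb hb0 => by
      obtain ⟨c, hc, h3⟩ := reach_pt hn hT hW ha hb (hT.sing_all a) (hT.sing_all b) ha0 hb0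
      obtain ⟨s, hs, h4⟩ := exists_pair_mem hn hW hb hb0 (hT.sing_all b)
      exact h.hasE' hr hQ ⟨z, hz, he⟩ (h3.trans (reach_smul hn hT hW h4 hb hs hc (Or.inl rfl)).symm)
    have key : ∀ a ∈ Φ.pairPerp x r, ∀ b ∈ Φ.pairPerp x r, a ≠ 0 → b ≠ 0 → a + b ≠ 0 →
        HasE Φ T x 0 (d - Φ.B a b) := fun a ha b hb ha0 hb0 hab =>
      (((all a ha ha0).mul (all b hb hb0)).mul (all _ (add_mem ha hb) hab).inv).congr (by simp) (by
        rw [map_neg, (hT.sing_all _).2, hT.ε_eq]; simp only [RingHom.id_apply]; ring)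
    rcases eq_or_ne d 0 with rfl | hd
    · exact ⟨_, by simp [hy.ef], key y h1 y' h2 hy.left_ne_zero hy.right_ne_zero fun e => by
        simpa [hy.se.2, hy.ef] using congrArg (Φ.B y) e⟩
    · obtain ⟨a, ha, b, hb, h3, h4, h5, h6⟩ := hex fun _ => rfl
      exact ⟨_, by simpa [h6], key a ha b hb h3 h4 h5⟩
  exfalso
  obtain ⟨b, hb⟩ := hW.exists_eq_one (x := ⟨a, ha⟩) fun h => ha0 (congrArg Subtype.val h)
  have hb : Φ.B a b = 1 := hb
  have key : ∀ s : F, s = Φ.ε * σ s := fun s => by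
    have hb' := Submodule.smul_mem _ s b.2
    obtain ⟨d', e, he'⟩ := exists_isE' hn hr.se (Φ.mem_pairPerp.1 hb').1
    have hab := (Φ.mem_pairPerp.1 (Submodule.add_mem _ ha hb')).2
    have := ((he.mul he').unique hr ((he'.mul he).congr (add_comm _ _) rfl) hab hab
      (by rw [hc e (hQ ⟨_, _, he'⟩)])).2
    rw [Φ.symm a, Φ.B_smul_right, hb, mul_one] at this
    exact mul_left_cancel₀ Φ.ε_ne_zero (by linear_combination this)
  have h3 := key 1
  exact hσ (RingHom.ext fun s => by simp only [map_one] at h3; simp only [RingHom.id_apply]; linear_combination σ s * h3 - key s)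

theorem fullT_of (hn : Φ.Nondeg) (hT : Tv Φ) (h3 : 3 ≤ finrank F V) (hr : Φ.IsPair x r) (hQ : QP Φ x hr.se ≤ S)
    (h : SC (SI Φ) S T) {t : F} (ht : t ≠ 0) (h1 : HasE Φ T x 0 t) : FullT Φ T x := by
  have key : ∀ c, HasE Φ T x 0 (t * (c * σ c)) := fun c => by
    rcases eq_or_ne c 0 with rfl | hc
    · simpa using hasE_one T hr.se
    obtain ⟨k, hk, e⟩ := reach_top hn hT h3 hr.se (hr.se.smul c) hr.left_ne_zero (by simp [hc, hr.left_ne_zero])
    simpa using h.hasE hr hQ h1 hk hc e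
  intro d g hg
  have e1 := h1.hB
  have e2 := hg.hB
  simp only [map_zero] at e1 e2
  by_cases hσ : σ = RingHom.id F
  · subst hσ
    by_cases h2 : (2 : F) = 0
    · obtain ⟨c, hc⟩ := FiniteField.isSquare_of_char_two (F := F) (by
        haveI := (CharP.charP_iff_prime_eq_zero Nat.prime_two).2 h2; exact ringChar.eq F 2) (d / t)
      exact ((key c).congr rfl (by simp only [RingHom.id_apply]; rw [← hc]; field_simp)).mem hg
    · exact (((key ((d / t + 1) / 2)).mul (key ((d / t - 1) / 2)).inv).congr (by simp) (by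
        simp only [RingHom.id_apply, hT.ε_eq, map_zero, LinearMap.zero_apply]; field_simp; ring)).mem hg
  · obtain ⟨c, hc⟩ := exists_norm_eq hσ Φ.σσ (a := d / t) (by
      rw [map_div₀, div_eq_div_iff (by simpa) ht]; linear_combination t * e2 - d * e1)
    exact ((key c).congr rfl (by rw [mul_comm c, hc]; field_simp)).mem hg

theorem SC.mem_of (hn : Φ.Nondeg) (hT : Tv Φ) (h3 : 3 ≤ finrank F V) (hr : Φ.IsPair x r)
    (h : SC (SI Φ) S T) {z a : V} {d : F} {g : V ≃ₗ[F] V} (hg : IsE Φ z a d g) (hS : g ∈ S)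
    (hx : ∀ k ∈ Φ.isom, ∀ g, IsE Φ x (k a) d g → g ∈ T) : g ∈ T := by
  rcases eq_or_ne z 0 with rfl | hz
  · have : g = 1 := LinearEquiv.ext fun v => by rw [hg.app]; simp
    rw [this]; exact one_mem _
  obtain ⟨k, hk, e⟩ := reach_top hn hT h3 hg.sp hr.se hz hr.left_ne_zero
  have := h _ (hx k hk.1 _ (e ▸ hg.conj hk.1)) k⁻¹ (inv_mem hk) (by simpa [mul_assoc] using hS)
  simpa [mul_assoc] using this

theorem full_of (hn : Φ.Nondeg) (hT : Tv Φ) (h3 : 3 ≤ finrank F V) (hr : Φ.IsPair x r) (hQ : QP Φ x hr.se ≤ S)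
    {y y' : V} (hy : Φ.IsPair y y') (h1 : y ∈ Φ.pairPerp x r) (h2 : y' ∈ Φ.pairPerp x r)
    (hR : ∀ (c : F) d g, IsE Φ (c • y) 0 d g → g ∈ S) (h : SC (SI Φ) S T) (hF : FullT Φ T x) : Full Φ T x := by
  obtain ⟨t, ht, e1, e2⟩ := id hT
  have hxy := (Φ.mem_pairPerp.1 h1).1
  have ex : ∀ z, Φ.Sing z → ∃ g, IsE Φ z 0 t g := fun z hz =>
    exists_isE hn hz (by simp) (by simpa using e1) (by simpa using e2)
  have tv : ∀ z g, IsE Φ z 0 t g → g ∈ S → g ∈ T := fun z g hg hS =>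
    h.mem_of hn hT h3 hr hg hS fun k _ g hg => hF _ _ (by simpa using hg)
  have hA : ∀ c : F, c • y ∈ AE Φ T hr.se := fun c => by
    obtain ⟨s, rfl⟩ : ∃ s, c = Φ.ε * t * s := ⟨c / (Φ.ε * t), by field_simp [Φ.ε_ne_zero]⟩
    obtain ⟨e, he⟩ := exists_isE0 hn hr.se (hy.se.smul (Φ.ε * t * s)) (by simp [hxy])
    obtain ⟨a, ha⟩ := ex x hr.se
    obtain ⟨b, hb⟩ := ex _ (hy.se.smul s)
    have h4 : IsE Φ (x + s • y) 0 t (e * a * b) := ⟨sing_add_of_perp hr.se (hy.se.smul s) (by simp [hxy]), by simp,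
      ha.hQ, ha.hB, fun v => by
        have e3 : σ t = -(Φ.ε * t) := by linear_combination e2
        simp only [LinearEquiv.mul_apply, hb.app0, ha.app0, he.app, map_sub, map_smul, Φ.B_smul_left, Φ.B_add_left,
          hxy, Φ.B_eq_zero_symm hxy, hr.se.2, hy.se.2, smul_eq_mul, map_mul, Φ.σε, e3, map_zero, LinearMap.zero_apply]
        match_scalars
        · ring
        · linear_combination (-t * σ s * Φ.B y v) * Φ.εε
        · linear_combination (-t * s * Φ.B x v) * Φ.εε⟩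
    have h5 := tv _ _ h4 (mul_mem (mul_mem (hQ ⟨_, _, he⟩) (hQ ⟨_, _, ha⟩)) (hR _ _ _ hb))
    exact ⟨0, e, (mul_mem_cancel_right (hF _ _ ha)).1 ((mul_mem_cancel_right (tv _ _ hb (hR _ _ _ hb))).1 h5), he⟩
  have inv : ∀ p ∈ Φ.pairPerp x r, ∀ b ∈ Φ.pairPerp x r, ∀ d g, IsE Φ p b d g → ∀ a ∈ AE Φ T hr.se,
      g a - a ∈ AE Φ T hr.se := fun p hp b hb d g hg a ⟨d', ha⟩ =>
    sub_mem ⟨d', h.hasE' hr hQ ha ⟨g, mem_EW_of hg hp hb, rfl⟩⟩ ⟨d', ha⟩
  have hA' : ∀ c : F, c • y' ∈ AE Φ T hr.se := fun c => by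
    obtain ⟨g, hg⟩ := ex y' hy.sf
    have := inv y' h2 0 (zero_mem _) t g hg _ (hA (-c / (t * Φ.ε)))
    rw [hg.app0, Φ.B_smul_right, hy.fe] at this
    convert this using 1
    match_scalars <;> field_simp [Φ.ε_ne_zero] <;> ring
  refine full_of_AE hr.se (fun a ha => ?_) hF
  obtain ⟨α, β, w, hw, rfl⟩ := hr.exists_decomp a
  obtain rfl : β = 0 := by simpa [hr.se.2, hr.ef, (Φ.mem_pairPerp.1 hw).1] using ha
  obtain ⟨γ, δ, u, hu, rfl⟩ := hy.exists_decomp w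
  have hu' : u ∈ Φ.pairPerp x r := (Submodule.add_mem_iff_right _
    (add_mem (Submodule.smul_mem _ _ h1) (Submodule.smul_mem _ _ h2))).1 hw
  refine add_mem (add_mem (smul_mem_AE _ _) (by simp)) (add_mem (add_mem (hA γ) (hA' δ)) ?_)
  obtain ⟨d, g, hg⟩ := exists_isE' hn hy.se (a := Φ.ε • u) (by simp [(Φ.mem_pairPerp.1 hu).1])
  have := add_mem (inv y h1 _ (Submodule.smul_mem _ _ hu') d g hg _ (by simpa using hA' 1)) (hA d)
  rw [hg.apply_r hy (by simp [(Φ.mem_pairPerp.1 hu).2]), smul_smul, Φ.εε, one_smul] at this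
  convert neg_mem this using 1
  abel

end A

section B
variable {p : ℕ} [Fact p.Prime] [CharP F p] {S : Subgroup (V ≃ₗ[F] V)} {x r y y' : V}

omit [Finite F] [FiniteDimensional F V] in
theorem line_le_perp (hx : Φ.Sing x) (hy : Φ.Sing y) (h : Φ.B x y = 0) :
    (F ∙ x) ⊔ (F ∙ y) ≤ Φ.perp ((F ∙ x) ⊔ F ∙ y) := by
  rw [perp_pair]
  exact pair_le (Φ.mem_pairPerp.2 ⟨hx.2, Φ.B_eq_zero_symm h⟩) (Φ.mem_pairPerp.2 ⟨h, hy.2⟩)

omit [Finite F] [FiniteDimensional F V] in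
theorem maps_line {g : V ≃ₗ[F] V} {U : Submodule F V} (hx : g x ∈ U) (hy : g y ∈ U) :
    ∀ u ∈ (F ∙ x) ⊔ (F ∙ y), g u ∈ U :=
  pair_le (W := U.comap (g : V →ₗ[F] V)) hx hy

theorem syl_line (hn : Φ.Nondeg) (hT : Tv Φ) (hp : IsPGroup p S) (hi : S ≤ Φ.isom) (hr : Φ.IsPair x r)
    (hy : Φ.IsPair y y') (h1 : y ∈ Φ.pairPerp x r) (h2 : y' ∈ Φ.pairPerp x r) (hx : ∀ s ∈ S, s x = x)
    (hR : Rad Φ ((F ∙ x) ⊔ F ∙ y) ≤ S) : ∀ s ∈ S, s y ∈ (F ∙ x) ⊔ (F ∙ y) := by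
  haveI : Finite V := Module.finite_of_finite F
  have hxy := (Φ.mem_pairPerp.1 h1).1
  have hxy' := (Φ.mem_pairPerp.1 h2).1
  have hyl : y ∈ (F ∙ x) ⊔ (F ∙ y) := Submodule.mem_sup_right (Submodule.mem_span_singleton_self y)
  obtain ⟨w, hw, hw0, h⟩ := exists_fixed_mod hp (U := F ∙ x) (W := Φ.perp (F ∙ x)) (fun s hs u hu => by
      obtain ⟨c, rfl⟩ := Submodule.mem_span_singleton.1 hu
      rwa [map_smul, hx s hs]) (fun s hs u hu => by
      rw [Φ.mem_perp_span_singleton] at hu ⊢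
      rw [← hx s hs, (Φ.mem_isom.1 (hi hs)).1, hu]) fun h => by
    obtain ⟨c, hc⟩ := Submodule.mem_span_singleton.1 (h (Φ.mem_perp_span_singleton.2 hxy))
    have := hy.ef
    rw [← hc, Φ.B_smul_left, hxy', mul_zero] at this
    exact zero_ne_one this
  have key : ∀ b ∈ Φ.perp ((F ∙ x) ⊔ F ∙ y), ∀ d g, IsE Φ y b d g → Φ.B y' (g w - w) = 0 := fun b hb d g hg => by
    obtain ⟨c, hc⟩ := Submodule.mem_span_singleton.1
      (h g (hR (isE_mem_Rad (line_le_perp hr.se hy.se hxy) hg hyl hb)))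
    rw [← hc, map_smul, Φ.B_eq_zero_symm hxy', smul_zero]
  have hyw : Φ.B y w = 0 := by
    obtain ⟨t, ht, e1, e2⟩ := hT
    obtain ⟨g, hg⟩ := exists_isE hn hy.se (a := 0) (d := t) (by simp) (by simpa using e1) (by simpa using e2)
    simpa [hg.app0, hy.fe, ht, Φ.ε_ne_zero] using key 0 (zero_mem _) t g hg
  have hwl : w ∈ (F ∙ x) ⊔ (F ∙ y) := by
    rw [← hn.perp_perp ((F ∙ x) ⊔ F ∙ y)]
    refine Φ.mem_perp.2 fun b hb => ?_
    obtain ⟨d, g, hg⟩ := exists_isE' hn hy.se (Φ.mem_perp.1 hb y hyl)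
    simpa [hg.apply_perp hyw, hy.fe, Φ.ε_ne_zero] using key b hb d g hg
  intro s hs
  obtain ⟨a, ha, b, hb, rfl⟩ := Submodule.mem_sup.1 hwl
  obtain ⟨α, rfl⟩ := Submodule.mem_span_singleton.1 ha
  obtain ⟨β, rfl⟩ := Submodule.mem_span_singleton.1 hb
  have hβ : β ≠ 0 := by rintro rfl; exact hw0 (by simpa using ha)
  have := add_mem (Submodule.mem_sup_left (T := F ∙ y) (h s hs)) (Submodule.mem_sup_right hb)
  rw [map_add, map_smul, map_smul, hx s hs, add_sub_add_left_eq_sub, sub_add_cancel] at this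
  exact (Submodule.smul_mem_iff _ hβ).1 this

theorem exists_torus_line (hn : Φ.Nondeg) (hr : Φ.IsPair x r) (hy : Φ.IsPair y y') (h1 : y ∈ Φ.pairPerp x r)
    (h2 : y' ∈ Φ.pairPerp x r) {c : F} (hc : c ≠ 0) : ∃ h ∈ OppA p (SI Φ ⊓
      Subgroup.normalizer (Rad Φ ((F ∙ x) ⊔ F ∙ y) : Set (V ≃ₗ[F] V))), h x = c • x := by
  obtain ⟨hxy, hry⟩ := Φ.mem_pairPerp.1 h1
  have hxl : x ∈ (F ∙ x) ⊔ (F ∙ y) := Submodule.mem_sup_left (Submodule.mem_span_singleton_self x)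
  have hyl : y ∈ (F ∙ x) ⊔ (F ∙ y) := Submodule.mem_sup_right (Submodule.mem_span_singleton_self y)
  have key : ∀ t : F, t ≠ 0 → ∃ k ∈ OppA p (SI Φ ⊓
      Subgroup.normalizer (Rad Φ ((F ∙ x) ⊔ F ∙ y) : Set (V ≃ₗ[F] V))), k (t • x) = -y := fun t ht => by
    obtain ⟨u, hu⟩ := exists_isE0 hn hr.se (hy.sf.smul (σ t * Φ.ε)) (by simp [(Φ.mem_pairPerp.1 h2).1])
    obtain ⟨l, hl⟩ := exists_isE0 hn hy.se (hr.sf.smul (σ (-t⁻¹) * Φ.ε)) (by simp [Φ.B_eq_zero_symm hry])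
    have e1 : u y = y + t • x := by
      rw [hu.apply_perp hxy, Φ.B_smul_left, hy.fe, map_mul, Φ.σσ, Φ.σε, mul_assoc, Φ.εε, mul_one]
    have e2 : l x = x + (-t⁻¹) • y := by
      rw [hl.apply_perp (Φ.B_eq_zero_symm hxy), Φ.B_smul_left, hr.fe, map_mul, Φ.σσ, Φ.σε, mul_assoc, Φ.εε, mul_one]
    refine ⟨u * l, mul_mem (mem_OppA ⟨isE_mem_SI hu, mem_normalizer_Rad hu.mem_isom (maps_line ?_ ?_)⟩ (hu.unip p))
      (mem_OppA ⟨isE_mem_SI hl, mem_normalizer_Rad hl.mem_isom (maps_line ?_ ?_)⟩ (hl.unip p)), ?_⟩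
    · rwa [hu.apply_p]
    · rw [e1]; exact add_mem hyl (Submodule.smul_mem _ _ hxl)
    · rw [e2]; exact add_mem hxl (Submodule.smul_mem _ _ hyl)
    · rwa [hl.apply_p]
    · rw [LinearEquiv.mul_apply, map_smul, e2, map_smul, map_add, map_smul, e1, hu.apply_p]
      match_scalars <;> field_simp <;> ring
  obtain ⟨k, hk, e⟩ := key c hc
  obtain ⟨k', hk', e'⟩ := key 1 one_ne_zero
  exact ⟨k⁻¹ * k', mul_mem (inv_mem hk) hk', by
    rw [LinearEquiv.mul_apply, ← one_smul F x, e', ← e, one_smul]; exact k.symm_apply_apply _⟩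

theorem mem_OppA_of_fix (hn : Φ.Nondeg) (hT : Tv Φ) (hr : Φ.IsPair x r) {g : V ≃ₗ[F] V} (hg : g ∈ SI Φ)
    (hx : g x = x) : g ∈ OppA p (SI Φ ⊓ Subgroup.normalizer (QP Φ x hr.se : Set (V ≃ₗ[F] V))) := by
  obtain ⟨a, -, d, e, he, h1, h2⟩ := adjust (W := ⊤) hn hr trivial trivial hg.1 trivial (c := 1) (by simpa)
  refine (mul_mem_cancel_left (inv_mem (mem_OppA (Subgroup.mem_inf.2 ⟨isE_mem_SI he,
    mem_normalizer_QP _ he.mem_isom he.apply_p⟩) (he.unip p)))).1 (EW_le (W := ⊤ ⊓ Φ.pairPerp x r)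
    (fun z hz b hb d g hg => mem_OppA (Subgroup.mem_inf.2 ⟨isE_mem_SI hg,
      mem_normalizer_QP _ hg.mem_isom ((mem_fix_pair hn).1 (isE_mem_fix hg hz hb)).2.1⟩) (hg.unip p))
    (mem_EW hn hT _ _ rfl (nondeg_pair hn (nondeg_top hn) hr trivial trivial) _
      (mul_mem (inv_mem (isE_mem_SI he)) hg) ((mem_fix_pair hn).2 ⟨?_, by simpa using h1, by simpa using h2⟩)))
  rw [hn.perp_top, fix_bot]; trivial

theorem mem_normalizer_fix {g : V ≃ₗ[F] V} {c : F} (h : g x = c • x) :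
    g ∈ Subgroup.normalizer (fix (F ∙ x) : Set (V ≃ₗ[F] V)) := by
  haveI := finite_equiv (F := F) (V := V)
  refine mem_normalizer_of_cj_le (cj_le_iff_forall.2 fun e he v hv => ?_)
  have h1 := inv_mem (mem_stab_of_le (U := F ∙ x) (g := g) fun v hv => by
    obtain ⟨s, rfl⟩ := Submodule.mem_span_singleton.1 hv
    rw [map_smul, h]; exact Submodule.smul_mem _ _ (Submodule.smul_mem _ _ (Submodule.mem_span_singleton_self x)))
  rw [LinearEquiv.mul_apply, LinearEquiv.mul_apply, he _ ((h1 v).1 hv)]; exact g.apply_symm_apply v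

theorem simple_SI (hn : Φ.Nondeg) (hT : Tv Φ) (hr : Φ.IsPair x r) (hy : Φ.IsPair y y') (h1 : y ∈ Φ.pairPerp x r)
    (h2 : y' ∈ Φ.pairPerp x r) (hex : (∀ c, σ c = c) → ∃ a ∈ Φ.pairPerp x r, ∃ b ∈ Φ.pairPerp x r,
      a ≠ 0 ∧ b ≠ 0 ∧ a + b ≠ 0 ∧ Φ.B a b = 0) {G : Type*} [Group G] (e : G ≃* SI Φ)
    (P : Sylow p (G ⧸ Subgroup.center G)) :
    (groupFusionSystem (P : Subgroup (G ⧸ Subgroup.center G))).IsSimple p := by
  haveI := finite_equiv (F := F) (V := V)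
  haveI : Finite G := Finite.of_equiv _ e.symm.toEquiv
  obtain ⟨hxy, hry⟩ := Φ.mem_pairPerp.1 h1
  have h3 : 3 ≤ finrank F V := by
    have := hr.finrank_pairPerp hn
    have := Submodule.finrank_mono (pair_le h1 h2)
    rw [hy.finrank_span] at this; omega
  have hxl : x ∈ (F ∙ x) ⊔ (F ∙ y) := Submodule.mem_sup_left (Submodule.mem_span_singleton_self x)
  have hyl : y ∈ (F ∙ x) ⊔ (F ∙ y) := Submodule.mem_sup_right (Submodule.mem_span_singleton_self y)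
  have hl := line_le_perp hr.se hy.se hxy
  obtain ⟨S, hS', hle⟩ := exists_sylIn_ge (H := Φ.isom) (Q := Rad Φ ((F ∙ x) ⊔ F ∙ y) ⊔ QP Φ x hr.se)
    (sup_le (fun _ h => h.1) fun _ ⟨_, _, h⟩ => h.mem_isom)
    ((isPGroup_Rad p ((F ∙ x) ⊔ F ∙ y)).to_sup_of_normal_right' (isPGroup_QP p hr.se)
      fun g hg => mem_normalizer_QP _ hg.1 (hg.2.1 x hxl))
  obtain ⟨hR, hQ⟩ := sup_le_iff.1 hle
  have hS : SylIn p S (SI Φ) := hS'.mono (le_inf hS'.le fun g hg => by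
    obtain ⟨k, hk⟩ := hS'.pg ⟨g, hg⟩
    exact mem_SLg_of_pow (k := k) (by rw [ringChar.eq F p]; exact congrArg Subtype.val hk)) inf_le_left
  have hx := (cen_facts hn h3 hr hQ hS'.le hS'.pg).1
  refine crit hS (fun e => ?_) (fun T hTS h0 h => ?_) (fun X _ hX g hg hN => ?_)
    ((QuotientGroup.mk' _).comp e.symm.toMonoidHom) ((QuotientGroup.mk'_surjective _).comp e.symm.surjective)
    (fun z hz h => ?_) P
  · obtain ⟨g, hg⟩ := exists_isE0 hn hr.se hy.se hxy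
    have := hg.apply_r hr hry
    rw [(e ▸ hQ : QP Φ x hr.se ≤ ⊥) ⟨_, _, hg⟩] at this
    simp [sub_eq_add_neg, Φ.ε_ne_zero, hy.left_ne_zero] at this
  · obtain ⟨d, hd, h4⟩ := exists_tv hn hT hS hr hQ hy h1 h2 hex hTS h0 h
    have h5 := full_of hn hT h3 hr hQ hy h1 h2 (fun c d g hg => hR (isE_mem_Rad hl hg (Submodule.smul_mem _ _ hyl)
      (zero_mem _))) h (fullT_of hn hT h3 hr hQ h hd h4)
    exact syl_gen hn hT _ ⊤ rfl (nondeg_top hn) S (by rwa [hn.perp_top, fix_bot, inf_top_eq])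
      fun z a d g hg hs => h.mem_of hn hT h3 hr hg hs fun k _ g hg => h5.2 _ _ _ hg
  · obtain ⟨c, hc⟩ := par_of_comm hn hr h1 hy.left_ne_zero (x := g x) fun a d e he => by
      have := hx _ (conj_inv_mem_of_mem_normalizer hN (hQ ⟨a, d, he⟩))
      exact g.symm_apply_eq.1 this
    have hc0 : c ≠ 0 := by rintro rfl; exact hr.left_ne_zero (by simpa using hc)
    obtain ⟨h, hh, e1⟩ := exists_torus_line (p := p) hn hr hy h1 h2 hc0
    obtain ⟨n, hn', k, hk, rfl⟩ := (hS.mono (K := OppA p (SI Φ ⊓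
      Subgroup.normalizer (Rad Φ ((F ∙ x) ⊔ F ∙ y) : Set (V ≃ₗ[F] V))) ⊓ fix (F ∙ x)) (le_inf (le_OppA (le_inf hS.le
        fun s hs => mem_normalizer_Rad (hS'.le hs) (maps_line (by rwa [hx s hs])
          (syl_line hn hT hS.pg hS'.le hr hy h1 h2 hx hR s hs))) hS.pg) fun s hs => mem_fix_span.2 (by simpa using hx s hs))
        (inf_le_left.trans ((OppA_le _ _).trans inf_le_left))).frattini (g := h)
      (le_normalizer_inf (L := Subgroup.zpowers h) (le_normalizer_of_le (by simpa using hh))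
        (by simpa using mem_normalizer_fix e1) (Subgroup.mem_zpowers h))
    have hk' := (mul_mem_cancel_left (Subgroup.mem_inf.1 hn').1).1 hh
    have e2 : k x = c • x := n.injective (by
      rw [map_smul, hn'.2 x (Submodule.mem_span_singleton_self x)]; exact e1)
    refine (mul_mem_cancel_left (inv_mem (hX _ hR (cent_Rad p hn hT hl hr hxl) k hk' hk))).1 (hX _ hQ
      (fun g hg hc hu => ?_) _ (mem_OppA_of_fix hn hT hr (mul_mem (inv_mem (OppA_le _ _ hk').1) hg) ?_)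
        (mul_mem (inv_mem hk) hN))
    · obtain ⟨a, -, d, he⟩ := isE_of_comm (ℓ := p) hn hr h1 hy.left_ne_zero hg.1 hu fun a d e he => hc e ⟨a, d, he⟩
      exact ⟨a, d, he⟩
    · rw [LinearEquiv.mul_apply, hc, ← e2]; exact k.symm_apply_apply x
  · have hc : e.symm z ∈ Subgroup.center G := (QuotientGroup.eq_one_iff _).1 h
    obtain ⟨c, hc⟩ := scalar_of_comm hn (rich_of_T hT) hr h3 (g := z.1) fun q a d g hg => by
      simpa using congrArg (fun u => (e u).1) (Subgroup.mem_center_iff.1 hc (e.symm ⟨g, isE_mem_SI hg⟩))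
    obtain ⟨k, hk⟩ := hS.pg ⟨z, hz⟩
    exact Subtype.ext (Unip.eq_one_of_scalar (ℓ := p) ⟨k, congrArg Subtype.val hk⟩ hc)

theorem simple_SI' (hn : Φ.Nondeg) (hT : Tv Φ) (h4 : 4 ≤ finrank F V)
    (hex : (∀ c, σ c = c) → 5 ≤ finrank F V ∨ 3 ≤ Nat.card F) {G : Type*} [Group G] (ι : G →* (V ≃ₗ[F] V))
    (hι : Function.Injective ι) (he : ι.range = SI Φ) (P : Sylow p (G ⧸ Subgroup.center G)) :
    (groupFusionSystem (P : Subgroup (G ⧸ Subgroup.center G))).IsSimple p := by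
  obtain ⟨x, hx0, hx⟩ := hT.exists_sing (by omega)
  obtain ⟨r, hr⟩ := hn.exists_isPair hx0 hx
  have hd := hr.finrank_pairPerp hn
  obtain ⟨y, h1, hy0, hy⟩ : ∃ y ∈ Φ.pairPerp x r, y ≠ 0 ∧ Φ.Sing y :=
    let ⟨y, h0, h⟩ := (hT.restrict (Φ.pairPerp x r)).exists_sing (by omega); ⟨y, y.2, by simpa using h0, h⟩
  obtain ⟨y', h2, hp⟩ := exists_pair_mem hn (hr.nondeg_pairPerp hn) h1 hy0 hy
  refine simple_SI hn hT hr hp h1 h2 (fun h => ?_)
    ((MonoidHom.ofInjective hι).trans (MulEquiv.subgroupCongr he)) P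
  rcases hex h with h5 | h3
  · have := finrank_pf (Φ := Φ) ![y] (Φ.pairPerp x r)
    obtain ⟨b, hb, hb'⟩ := exists_notMem_of_lt (U := Φ.pairPerp x r ⊓ pf Φ ![y]) (R := F ∙ y) (by
      rw [finrank_span_singleton hy0]; omega)
    exact ⟨y, h1, b, hb.1, hy0, fun e => hb' (e ▸ zero_mem _), fun e => hb' (by
      rw [← neg_eq_iff_add_eq_zero.2 e]; exact neg_mem (Submodule.mem_span_singleton_self y)), mem_pf.1 hb.2 0⟩
  · haveI := Fintype.ofFinite F
    classical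
    obtain ⟨t, -, ht⟩ := Finset.exists_mem_notMem_of_card_lt_card (s := {0, -1}) (t := (Finset.univ : Finset F))
      (Finset.card_le_two.trans_lt (by rwa [Finset.card_univ, ← Nat.card_eq_fintype_card]))
    simp only [Finset.mem_insert, Finset.mem_singleton, not_or] at ht
    exact ⟨y, h1, t • y, Submodule.smul_mem _ _ h1, hy0, by simp [ht.1, hy0], fun e => ht.2 (by
      rw [← one_smul F y, smul_smul, ← add_smul, smul_eq_zero, or_iff_left hy0] at e; linear_combination e),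
      by simp [hp.se.2]⟩

end B

end Cfsg.Agent.FusE
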