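import Cfsg.Agent.FusE.Form2

/-! The defining-characteristic fusion system of `PSL_n(q)`, `n ≥ 3`, is simple (`simple_SL`). -/

set_option autoImplicit false

namespace Cfsg.Agent.FusE

open Cfsg.Agent.Geom Cfsg.Agent.AutCl Cfsg.Agent.Root.Mx Cfsg.Agent.Loc Cfsg.Agent.Fus Module

variable {F : Type*} [Field F] {V : Type*} [AddCommGroup V] [Module F V]

/-- `g` is the transvection with centre `x` and axis `φ`. -/
structure IsL (x : V) (φ : Dual F V) (g : V ≃ₗ[F] V) : Prop where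
  z : φ x = 0
  app : ∀ v, g v = v + φ v • x

theorem exists_isL {x : V} {φ : Dual F V} (h : φ x = 0) : ∃ g, IsL x φ g :=
  ⟨LinearEquiv.transvection h, h, fun v => rfl⟩

namespace IsL
variable {x : V} {φ ψ : Dual F V} {g g' : V ≃ₗ[F] V}

theorem ext (h : IsL x φ g) (h' : IsL x φ g') : g = g' := LinearEquiv.ext fun v => by rw [h.app, h'.app]

theorem fix (h : IsL x φ g) {v : V} (hv : φ v = 0) : g v = v := by rw [h.app, hv, zero_smul, add_zero]

theorem mul (h : IsL x φ g) (h' : IsL x ψ g') : IsL x (φ + ψ) (g * g') :=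
  ⟨by simp [h.z, h'.z], fun v => by simp [h.app, h'.app, h.z, add_smul]; abel⟩

theorem inv (h : IsL x φ g) : IsL x (-φ) g⁻¹ :=
  ⟨by simp [h.z], fun v => g.symm_apply_eq.2 (by simp [h.app, h.z])⟩

theorem conj (h : IsL x φ g) (s : V ≃ₗ[F] V) : IsL (s x) (φ ∘ₗ (s⁻¹ : V ≃ₗ[F] V)) (s * g * s⁻¹) :=
  ⟨by simpa using h.z, fun v => by simp [h.app]⟩

theorem mem_SLg [FiniteDimensional F V] (h : IsL x φ g) : g ∈ SLg F V :=
  (show IsL x φ (LinearEquiv.transvection h.z) from ⟨h.z, fun _ => rfl⟩).ext h ▸ tv_mem_SLg h.z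

end IsL

/-- The unipotent radical of the stabiliser of a subspace. -/
def RadL (U : Submodule F V) : Subgroup (V ≃ₗ[F] V) where
  carrier := {g | (∀ u ∈ U, g u = u) ∧ ∀ v, g v - v ∈ U}
  one_mem' := ⟨fun _ _ => rfl, fun _ => by simp⟩
  mul_mem' := fun {a b} ha hb => ⟨fun u hu => by rw [LinearEquiv.mul_apply, hb.1 u hu, ha.1 u hu],
    fun v => by simpa using U.add_mem (ha.2 (b v)) (hb.2 v)⟩
  inv_mem' := fun {a} ha => ⟨fun u hu => a.symm_apply_eq.2 (ha.1 u hu).symm, fun v => by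
    simpa using U.neg_mem (ha.2 (a⁻¹ v))⟩

theorem isPGroup_RadL (p : ℕ) [Fact p.Prime] [CharP F p] (U : Submodule F V) : IsPGroup p (RadL U) :=
  fun ⟨g, h1, h2⟩ => ⟨2, Subtype.ext (pow_eq_one_of_cube (LinearMap.ext fun v =>
    sub_eq_zero.2 (h1 _ (U.sub_mem ((h1 _ (h2 v)).symm ▸ h2 v : g (g v - v) ∈ U) (h2 v)))))⟩

theorem IsL.mem_RadL {x : V} {φ : Dual F V} {g : V ≃ₗ[F] V} (h : IsL x φ g) {U : Submodule F V} (hx : x ∈ U)
    (hU : ∀ u ∈ U, φ u = 0) : g ∈ RadL U :=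
  ⟨fun u hu => h.fix (hU u hu), fun v => by rw [h.app, add_sub_cancel_left]; exact U.smul_mem _ hx⟩

theorem IsL.mem_Rad1 {x : V} {φ : Dual F V} {g : V ≃ₗ[F] V} (h : IsL x φ g) : g ∈ RadL (F ∙ x) :=
  h.mem_RadL (Submodule.mem_span_singleton_self x) fun u hu => by
    obtain ⟨c, rfl⟩ := Submodule.mem_span_singleton.1 hu; simp [h.z]

theorem IsL.unip (p : ℕ) [Fact p.Prime] [CharP F p] {x : V} {φ : Dual F V} {g : V ≃ₗ[F] V} (h : IsL x φ g) :
    Unip p g := let ⟨k, hk⟩ := isPGroup_RadL p _ ⟨g, h.mem_Rad1⟩; ⟨k, congrArg Subtype.val hk⟩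

theorem exists_dual {U : Submodule F V} {v : V} (h : v ∉ U) : ∃ φ : Dual F V, φ v = 1 ∧ ∀ u ∈ U, φ u = 0 := by
  obtain ⟨φ, h1, h2⟩ := Submodule.exists_dual_map_eq_bot_of_notMem h inferInstance
  exact ⟨(φ v)⁻¹ • φ, by simp [h1], fun u hu => by simp [show φ u = 0 from h2.le ⟨u, hu, rfl⟩]⟩

theorem exists_isL_of_mem {x : V} (hx : x ≠ 0) {g : V ≃ₗ[F] V} (h : g ∈ RadL (F ∙ x)) : ∃ φ, IsL x φ g := by
  obtain ⟨ψ, h1, -⟩ := exists_dual (U := (⊥ : Submodule F V)) (v := x) (by simpa)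
  refine ⟨ψ ∘ₗ ((g : V →ₗ[F] V) - LinearMap.id), by simp [h.1 x (Submodule.mem_span_singleton_self x)], fun v => ?_⟩
  obtain ⟨c, hc⟩ := Submodule.mem_span_singleton.1 (h.2 v)
  simp only [LinearMap.comp_apply, LinearMap.sub_apply, LinearEquiv.coe_coe, LinearMap.id_apply, ← hc, map_smul, h1,
    smul_eq_mul, mul_one]
  rw [hc]; abel

theorem mem_RadL_of_comm (p : ℕ) [Fact p.Prime] [CharP F p] {U : Submodule F V} (h0 : U ≠ ⊥) (h1 : U ≠ ⊤)
    {g : V ≃ₗ[F] V} (hu : Unip p g) (hc : ∀ e ∈ RadL U, e * g = g * e) : g ∈ RadL U := by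
  have key : ∀ x ∈ U, ∀ φ : Dual F V, (∀ u ∈ U, φ u = 0) → ∀ v, φ (g v) • x = φ v • g x := fun x hx φ hφ v => by
    obtain ⟨e, he⟩ := exists_isL (hφ x hx)
    simpa [he.app] using congrArg (· v) (hc e (he.mem_RadL hx hφ))
  obtain ⟨v, -, hv⟩ := SetLike.exists_of_lt (lt_top_iff_ne_top.2 h1)
  obtain ⟨φ, e1, e2⟩ := exists_dual hv
  have h2 : ∀ x ∈ U, g x = x := fun x hx => by
    rcases eq_or_ne x 0 with rfl | hx0
    · simp
    have := key x hx φ e2 v
    rw [e1, one_smul] at this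
    rw [← this, hu.eig0 hx0 this.symm, one_smul]
  refine ⟨h2, fun w => by_contra fun hw => ?_⟩
  obtain ⟨ψ, e3, e4⟩ := exists_dual hw
  obtain ⟨x, hx, hx0⟩ := Submodule.exists_mem_ne_zero_of_ne_bot h0
  have := key x hx ψ e4 w
  rw [h2 x hx, ← sub_eq_zero, ← sub_smul, ← map_sub, e3, one_smul] at this
  exact hx0 this

/-- The group generated by the transvections fixing `U` pointwise. -/
def LU (U : Submodule F V) : Subgroup (V ≃ₗ[F] V) :=
  Subgroup.closure {g | ∃ x φ, IsL x φ g ∧ ∀ u ∈ U, φ u = 0}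

theorem LU_le {U : Submodule F V} {X : Subgroup (V ≃ₗ[F] V)}
    (h : ∀ x φ g, IsL x φ g → (∀ u ∈ U, g u = u) → g ∈ X) : LU U ≤ X :=
  (Subgroup.closure_le _).2 fun g ⟨x, φ, hg, hφ⟩ => h x φ g hg fun u hu => hg.fix (hφ u hu)

theorem exists_move {U : Submodule F V} {v w : V} (hv : v ∉ U) (hw : w ∉ U ⊔ F ∙ v) : ∃ k ∈ LU U, k v = w := by
  obtain ⟨φ, h1, h2⟩ := exists_dual (U := U ⊔ F ∙ (w - v)) (v := v) fun h => hw (by
    obtain ⟨a, ha, b, hb, e⟩ := Submodule.mem_sup.1 h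
    obtain ⟨c, rfl⟩ := Submodule.mem_span_singleton.1 hb
    have hc : c ≠ 0 := by rintro rfl; exact hv (by rwa [← e, zero_smul, add_zero])
    have : w = -(c⁻¹ • a) + (1 + c⁻¹) • v := by
      rw [← smul_right_inj hc, smul_add, smul_neg, smul_inv_smul₀ hc, smul_smul, mul_add, mul_inv_cancel₀ hc]
      linear_combination (norm := module) e
    rw [this]
    exact Submodule.add_mem_sup (neg_mem (U.smul_mem _ ha)) (Submodule.smul_mem _ _ (Submodule.mem_span_singleton_self v)))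
  obtain ⟨k, hk⟩ := exists_isL (h2 _ (Submodule.mem_sup_right (Submodule.mem_span_singleton_self _)))
  exact ⟨k, Subgroup.subset_closure ⟨_, _, hk, fun u hu => h2 u (Submodule.mem_sup_left hu)⟩, by simp [hk.app, h1]⟩

variable [FiniteDimensional F V]

theorem finrank_sup_span {U : Submodule F V} {v : V} (hv : v ∉ U) : finrank F ↥(U ⊔ F ∙ v) = finrank F U + 1 := by
  have := Submodule.finrank_sup_add_finrank_inf_eq U (F ∙ v)
  rwa [((Submodule.disjoint_span_singleton' (by rintro rfl; exact hv (zero_mem _))).2 hv).eq_bot, finrank_bot,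
    finrank_span_singleton (by rintro rfl; exact hv (zero_mem _))] at this

theorem exists_move' {U : Submodule F V} (h2 : finrank F U + 2 ≤ finrank F V) {v w : V} (hv : v ∉ U) (hw : w ∉ U) :
    ∃ k ∈ LU U, k v = w := by
  by_cases h : w ∈ U ⊔ F ∙ v
  swap; · exact exists_move hv h
  obtain ⟨z, -, hz⟩ := exists_notMem_of_lt (U := ⊤) (R := U ⊔ F ∙ v) (by rw [finrank_sup_span hv, finrank_top]; omega)
  obtain ⟨k, hk, e⟩ := exists_move hv hz
  obtain ⟨k', hk', e'⟩ := exists_move hw fun h' => hz (sup_le le_sup_left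
    ((Submodule.span_singleton_le_iff_mem _ _).2 h) h')
  exact ⟨k'⁻¹ * k, mul_mem (inv_mem hk') hk, by rw [LinearEquiv.mul_apply, e, ← e']; exact k'.symm_apply_apply w⟩

theorem LU_le_SLg (U : Submodule F V) : LU U ≤ SLg F V := LU_le fun _ _ _ h _ => h.mem_SLg

theorem mem_LU (n : ℕ) : ∀ U : Submodule F V, finrank F U + n = finrank F V → ∀ g ∈ SLg F V, g ∈ fix U → g ∈ LU U := by
  induction n with
  | zero =>
    intro U hU g _ hf
    rw [Submodule.eq_top_of_finrank_eq hU, fix_top] at hf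
    rw [hf]; exact one_mem _
  | succ n ih =>
    intro U hU g hg hf
    obtain ⟨v, -, hv⟩ := exists_notMem_of_lt (U := ⊤) (R := U) (by rw [finrank_top]; omega)
    have hgv : g v ∉ U := fun h => hv ((fix_le_stab U hf v).2 h)
    have hm : LU (U ⊔ F ∙ v) ≤ LU U := Subgroup.closure_mono fun g ⟨x, φ, h1, h2⟩ =>
      ⟨x, φ, h1, fun u hu => h2 u (Submodule.mem_sup_left hu)⟩
    rcases n with _ | n
    · obtain ⟨φ, h1, h2⟩ := exists_dual hv
      have ht : U ⊔ F ∙ v = ⊤ := Submodule.eq_top_of_finrank_eq (by rw [finrank_sup_span hv, hU])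
      have h3 : ∀ w, g w = w + φ w • (g v - v) := fun w => by
        obtain ⟨a, ha, b, hb, rfl⟩ := Submodule.mem_sup.1 (ht.ge (Submodule.mem_top (x := w)))
        obtain ⟨c, rfl⟩ := Submodule.mem_span_singleton.1 hb
        simp [hf a ha, h1, h2 a ha, smul_sub]
      have h4 := mem_SLg.1 hg
      rw [show (g : V →ₗ[F] V) = LinearMap.transvection φ (g v - v) from LinearMap.ext h3,
        LinearMap.transvection.det] at h4
      exact Subgroup.subset_closure ⟨_, φ, ⟨by simpa using h4, h3⟩, h2⟩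
    obtain ⟨k, hk, e⟩ := exists_move' (by omega) hgv hv
    refine (mul_mem_cancel_left hk).1 (hm (ih _ (by rw [finrank_sup_span hv]; omega) _
      (mul_mem (LU_le_SLg U hk) hg) ?_))
    rw [fix_sup]
    exact ⟨mul_mem (LU_le (X := fix U) (fun _ _ _ _ h => h) hk) hf, mem_fix_span.2 (by simpa using e)⟩

variable [Finite F]

theorem mem_normalizer_RadL {U : Submodule F V} {g : V ≃ₗ[F] V} (h : ∀ u ∈ U, g u ∈ U) :
    g ∈ Subgroup.normalizer (RadL U : Set (V ≃ₗ[F] V)) := by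
  haveI := finite_equiv (F := F) (V := V)
  have h1 := inv_mem (mem_stab_of_le h)
  refine mem_normalizer_of_cj_le (cj_le_iff_forall.2 fun e he => ⟨fun u hu => ?_, fun v => ?_⟩)
  · rw [LinearEquiv.mul_apply, LinearEquiv.mul_apply, he.1 _ ((h1 u).1 hu)]; exact g.apply_symm_apply u
  · simpa using h _ (he.2 (g⁻¹ v))

variable {p : ℕ} [Fact p.Prime] [CharP F p]

theorem syl_genL {T : Subgroup (V ≃ₗ[F] V)} (n : ℕ) : ∀ U : Submodule F V, finrank F U + n = finrank F V →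
    ∀ P, SylIn p P (fix U) → (∀ x φ g, IsL x φ g → g ∈ P → g ∈ T) → P ≤ T := by
  haveI : Finite V := Module.finite_of_finite F
  induction n with
  | zero =>
    intro U hU P hP _
    have := hP.le
    rw [Submodule.eq_top_of_finrank_eq hU, fix_top] at this
    exact this.trans bot_le
  | succ n ih =>
    intro U hU P hP h
    obtain ⟨w, -, hw, hf⟩ := exists_fixed_mod hP.pg (U := U) (W := ⊤) (fun s hs u hu => by rwa [hP.le hs u hu])
      (fun _ _ _ _ => trivial) fun h => by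
        have := Submodule.finrank_mono h
        rw [finrank_top] at this; omega
    have hn : fix U ≤ Subgroup.normalizer (RadL U : Set (V ≃ₗ[F] V)) := fun g hg =>
      mem_normalizer_RadL fun u hu => by rwa [hg u hu]
    have hQ := hP.le_of_le_normalizer (Q := RadL U) (fun _ h => h.1) (isPGroup_RadL p U) (hP.le.trans hn)
    have dec : ∀ g ∈ P, ∃ x φ e, IsL x φ e ∧ e ∈ RadL U ∧ e⁻¹ * g ∈ P ⊓ fix (U ⊔ F ∙ w) := fun g hg => by
      obtain ⟨φ, h1, h2⟩ := exists_dual hw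
      obtain ⟨e, he⟩ := exists_isL (h2 _ (hf g hg))
      have h3 := he.mem_RadL (hf g hg) h2
      have h4 := mul_mem (inv_mem (hQ h3)) hg
      refine ⟨_, _, e, he, h3, h4, ?_⟩
      rw [fix_sup]
      exact ⟨hP.le h4, mem_fix_span.2 (by simpa using e.symm_apply_eq.2 (by simp [he.app, h1]))⟩
    have := ih _ (by rw [finrank_sup_span hw]; omega) (P ⊓ fix (U ⊔ F ∙ w)) ⟨inf_le_right,
      hP.pg.to_le inf_le_left, fun R hR hRp hle => le_antisymm (le_inf ?_ hR) hle⟩ fun x φ g he hg => h x φ g he hg.1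
    · intro g hg
      obtain ⟨x, φ, e, he, h1, h2⟩ := dec g hg
      exact (mul_mem_cancel_left (inv_mem (h _ _ _ he (hQ h1)))).1 (this h2)
    have hR' := hR.trans (fix_anti le_sup_left)
    rw [← hP.max (R ⊔ RadL U) (sup_le hR' fun _ h => h.1) (hRp.to_sup_of_normal_right' (isPGroup_RadL p U)
      (hR'.trans hn)) fun g hg => by
        obtain ⟨x, φ, e, -, he, h1⟩ := dec g hg
        exact (mul_mem_cancel_left (inv_mem (Subgroup.mem_sup_right he))).1 (Subgroup.mem_sup_left (hle h1))]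
    exact le_sup_left

omit [Finite F] in
theorem all_isL (h3 : 3 ≤ finrank F V) {S T : Subgroup (V ≃ₗ[F] V)} (h : SC (SLg F V) S T) {x : V} (hx : x ≠ 0)
    (hQ : RadL (F ∙ x) ≤ S) {φ : Dual F V} {g : V ≃ₗ[F] V} (hg : IsL x φ g) (hT : g ∈ T) (h1 : g ≠ 1) :
    ∀ y ψ g, IsL y ψ g → g ∈ S → g ∈ T := by
  have step : ∀ φ g, IsL x φ g → g ∈ T → ∀ ψ g', IsL x ψ g' → (∃ v, ψ v = 0 ∧ φ v ≠ 0) → g' ∈ T := by
    rintro φ g hg hT ψ g' hg' ⟨v, h1, h2⟩
    obtain ⟨k, hk⟩ := exists_isL (x := (φ v)⁻¹ • v) (φ := ψ) (by simp [h1])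
    have h4 := hg.conj k⁻¹
    rw [hk.inv.fix (by simp [hg'.z]), inv_inv] at h4
    have h5 := mul_mem (h g hT k⁻¹ (inv_mem hk.mem_SLg) (by simpa using hQ h4.mem_Rad1)) (inv_mem hT)
    rw [inv_inv] at h5
    rwa [hg'.ext (g' := k⁻¹ * g * k * g⁻¹) (by convert h4.mul hg.inv using 1; ext w; simp [hk.app, h2])]
  obtain ⟨v, hv⟩ : ∃ v, φ v ≠ 0 := by
    by_contra! hc; exact h1 (LinearEquiv.ext fun v => hg.fix (hc v))
  have key : ∀ ψ g', IsL x ψ g' → g' ∈ T := fun ψ g' hg' => by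
    by_cases hc : ∃ v, ψ v = 0 ∧ φ v ≠ 0
    · exact step φ g hg hT ψ g' hg' hc
    push Not at hc
    obtain ⟨w, -, hw⟩ := exists_notMem_of_lt (U := ⊤) (R := (F ∙ x) ⊔ F ∙ v) (by
      have := Submodule.finrank_add_le_finrank_add_finrank (F ∙ x) (F ∙ v)
      rw [finrank_span_singleton hx, finrank_span_singleton (by rintro rfl; simp at hv)] at this
      rw [finrank_top]; omega)
    obtain ⟨χ, e1, e2⟩ := exists_dual hw
    have e3 := e2 v (Submodule.mem_sup_right (Submodule.mem_span_singleton_self v))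
    obtain ⟨k, hk⟩ := exists_isL (e2 x (Submodule.mem_sup_left (Submodule.mem_span_singleton_self x)))
    have hψ : ψ v ≠ 0 := fun e => hv (hc v e)
    exact step χ k hk (step φ g hg hT χ k hk ⟨v, e3, hv⟩) ψ g' hg' ⟨w - (ψ w / ψ v) • v, by simp [hψ], by simp [e1, e3]⟩
  intro y ψ g hg hS
  rcases eq_or_ne y 0 with rfl | hy
  · rw [show g = 1 from LinearEquiv.ext fun v => by simp [hg.app]]; exact one_mem _
  obtain ⟨k, hk, e⟩ := exists_move' (U := (⊥ : Submodule F V)) (by simp; omega) (v := y) (w := x) (by simpa) (by simpa)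
  have := h _ (key _ _ (e ▸ hg.conj k)) k⁻¹ (inv_mem (LU_le_SLg _ hk)) (by simpa [mul_assoc] using hS)
  simpa [mul_assoc] using this

theorem simple_SL (h3 : 3 ≤ finrank F V) {G : Type*} [Group G] (ι : G →* (V ≃ₗ[F] V))
    (hι : Function.Injective ι) (he : ι.range = SLg F V) (P : Sylow p (G ⧸ Subgroup.center G)) :
    (groupFusionSystem (P : Subgroup (G ⧸ Subgroup.center G))).IsSimple p := by
  haveI : Finite V := Module.finite_of_finite F
  haveI := finite_equiv (F := F) (V := V)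
  haveI : Finite G := Finite.of_injective _ hι
  let e := (MonoidHom.ofInjective hι).trans (MulEquiv.subgroupCongr he)
  obtain ⟨x, -, hx0⟩ := exists_notMem_of_lt (U := (⊤ : Submodule F V)) (R := ⊥) (by simp; omega)
  have hd1 := finrank_sup_span hx0
  rw [bot_sup_eq, finrank_bot] at hd1
  obtain ⟨y, -, hy⟩ := exists_notMem_of_lt (U := (⊤ : Submodule F V)) (R := F ∙ x) (by rw [finrank_top]; omega)
  have hd2 := finrank_sup_span hy
  rw [Submodule.mem_bot] at hx0
  have hx1 := Submodule.mem_span_singleton_self (R := F) x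
  have hxl : x ∈ (F ∙ x) ⊔ (F ∙ y) := Submodule.mem_sup_left hx1
  have hyl : y ∈ (F ∙ x) ⊔ (F ∙ y) := Submodule.mem_sup_right (Submodule.mem_span_singleton_self y)
  have cent : ∀ U : Submodule F V, 0 < finrank F U → finrank F U < 3 → Cent p (SLg F V) (RadL U) :=
    fun U h1 h2 g _ hc hu => mem_RadL_of_comm p (by rintro rfl; simp at h1) (by rintro rfl; simp at h2; omega) hu hc
  have nx : ∀ g : V ≃ₗ[F] V, g x = x → g ∈ Subgroup.normalizer (RadL (F ∙ x) : Set (V ≃ₗ[F] V)) := fun g hg =>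
    mem_normalizer_RadL fun u hu => by rwa [mem_fix_span.2 (by simpa using hg) u hu]
  obtain ⟨S, hS', hle⟩ := exists_sylIn_ge (H := ⊤) (Q := RadL ((F ∙ x) ⊔ F ∙ y) ⊔ RadL (F ∙ x)) le_top
    ((isPGroup_RadL p _).to_sup_of_normal_right' (isPGroup_RadL p _) fun g hg => nx g (hg.1 x hxl))
  obtain ⟨hR, hQ⟩ := sup_le_iff.1 hle
  have hS : SylIn p S (SLg F V) := hS'.mono (fun g hg => by
    obtain ⟨k, hk⟩ := hS'.pg ⟨g, hg⟩
    exact mem_SLg_of_pow (k := k) (by rw [ringChar.eq F p]; exact congrArg Subtype.val hk)) le_top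
  have par : ∀ v, (∀ g ∈ RadL (F ∙ x), g v = v) → ∃ c : F, c • x = v := fun v h =>
    Submodule.mem_span_singleton.1 (by_contra fun hv => by
      obtain ⟨φ, h1, h2⟩ := exists_dual hv
      obtain ⟨g, hg⟩ := exists_isL (h2 x hx1)
      simpa [hg.app, h1, hx0] using h g hg.mem_Rad1)
  have hx : ∀ s ∈ S, s x = x := by
    obtain ⟨v, -, hv, h⟩ := exists_fixed_mod hS.pg (U := ⊥) (W := ⊤) (by simp) (by simp) fun h => hx0 (h trivial)
    obtain ⟨c, rfl⟩ := par v fun g hg => sub_eq_zero.1 (h g (hQ hg))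
    intro s hs
    simpa [← smul_sub, sub_eq_zero, show c ≠ 0 by rintro rfl; simp at hv] using h s hs
  have hl : ∀ s ∈ S, s y ∈ (F ∙ x) ⊔ (F ∙ y) := by
    obtain ⟨w, -, hw, h⟩ := exists_fixed_mod hS.pg (U := F ∙ x) (W := ⊤)
      (fun s hs u hu => by rwa [mem_fix_span.2 (by simpa using hx s hs) u hu]) (by simp) fun h => hy (h trivial)
    have hwl : w ∈ (F ∙ x) ⊔ (F ∙ y) := by_contra fun hv => by
      obtain ⟨φ, h1, h2⟩ := exists_dual hv
      obtain ⟨g, hg⟩ := exists_isL (h2 y hyl)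
      exact hy (by simpa [hg.app, h1] using h g (hR (hg.mem_RadL hyl h2)))
    intro s hs
    obtain ⟨a, ha, b, hb, rfl⟩ := Submodule.mem_sup.1 hwl
    obtain ⟨α, rfl⟩ := Submodule.mem_span_singleton.1 ha
    obtain ⟨β, rfl⟩ := Submodule.mem_span_singleton.1 hb
    have hβ : β ≠ 0 := by rintro rfl; exact hw (by simpa using ha)
    have := add_mem (Submodule.mem_sup_left (T := F ∙ y) (h s hs)) (Submodule.mem_sup_right hb)
    rw [map_add, map_smul, map_smul, hx s hs, add_sub_add_left_eq_sub, sub_add_cancel] at this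
    exact (Submodule.smul_mem_iff _ hβ).1 this
  obtain ⟨η, hη, hη'⟩ := exists_dual hy
  obtain ⟨ξ, hξ, hξ'⟩ := exists_dual (U := F ∙ y) (v := x) fun h => by
    obtain ⟨c, rfl⟩ := Submodule.mem_span_singleton.1 h
    exact hy ((Submodule.smul_mem_iff _ (by rintro rfl; simp at hx0)).1 hx1)
  replace hη' := hη' x hx1
  replace hξ' := hξ' y (Submodule.mem_span_singleton_self y)
  refine crit hS (fun e => ?_) (fun T hTS h0 h => ?_) (fun X _ hX g hg hN => ?_)
    ((QuotientGroup.mk' _).comp e.symm.toMonoidHom) ((QuotientGroup.mk'_surjective _).comp e.symm.surjective)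
    (fun z hz h => ?_) P
  · obtain ⟨g, hg⟩ := exists_isL hη'
    have := hg.app y
    rw [(e ▸ hQ : RadL (F ∙ x) ≤ ⊥) hg.mem_Rad1] at this
    simp [hη, hx0] at this
  · obtain ⟨z, hz, hz1, hc⟩ := h.exists_central hS hTS h0
    obtain ⟨k, hk⟩ := hS.pg ⟨z, hTS hz⟩
    obtain ⟨φ, hφ⟩ := exists_isL_of_mem hx0 (cent _ (by omega) (by omega) z (hS.le (hTS hz))
      (fun e he => hc e (hQ he)) ⟨k, congrArg Subtype.val hk⟩)
    exact syl_genL _ ⊥ (by simp; rfl) S (by rwa [fix_bot]) (all_isL h3 h hx0 hQ hφ hz hz1)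
  · obtain ⟨c, hc⟩ := par (g x) fun e he => g.symm_apply_eq.1 (hx _ (conj_inv_mem_of_mem_normalizer hN (hQ he)))
    have hc0 : c ≠ 0 := by rintro rfl; exact hx0 (by simpa using hc.symm)
    have key : ∀ t : F, t ≠ 0 → ∃ k ∈ OppA p (SLg F V ⊓
        Subgroup.normalizer (RadL ((F ∙ x) ⊔ F ∙ y) : Set (V ≃ₗ[F] V))), k (t • x) = -y := fun t ht => by
      obtain ⟨u, hu⟩ := exists_isL (x := x) (φ := t • η) (by simp [hη'])
      obtain ⟨l, hl⟩ := exists_isL (x := y) (φ := -t⁻¹ • ξ) (by simp [hξ'])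
      refine ⟨u * l, mul_mem (mem_OppA ⟨hu.mem_SLg, mem_normalizer_RadL fun v hv => ?_⟩ (hu.unip p))
        (mem_OppA ⟨hl.mem_SLg, mem_normalizer_RadL fun v hv => ?_⟩ (hl.unip p)), ?_⟩
      · rw [hu.app]; exact add_mem hv (Submodule.smul_mem _ _ hxl)
      · rw [hl.app]; exact add_mem hv (Submodule.smul_mem _ _ hyl)
      · simp [hu.app, hl.app, hη, hη', hξ, ht]
    obtain ⟨k1, hk1, e1⟩ := key c hc0
    obtain ⟨k2, hk2, e2⟩ := key 1 one_ne_zero
    have hh := mul_mem (inv_mem hk1) hk2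
    have e1 : (k1⁻¹ * k2) x = c • x := by
      rw [LinearEquiv.mul_apply, ← one_smul F x, e2, ← e1, one_smul]; exact k1.symm_apply_apply _
    obtain ⟨n, hn', k, hk, e3⟩ := (hS.mono (K := OppA p (SLg F V ⊓
      Subgroup.normalizer (RadL ((F ∙ x) ⊔ F ∙ y) : Set (V ≃ₗ[F] V))) ⊓ fix (F ∙ x)) (le_inf (le_OppA (le_inf hS.le
        fun s hs => mem_normalizer_RadL (maps_line (by rwa [hx s hs]) (hl s hs))) hS.pg)
        fun s hs => mem_fix_span.2 (by simpa using hx s hs))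
        (inf_le_left.trans ((OppA_le _ _).trans inf_le_left))).frattini (g := k1⁻¹ * k2)
      (le_normalizer_inf (L := Subgroup.zpowers _) (le_normalizer_of_le (by simpa using hh))
        (by simpa using mem_normalizer_fix e1) (Subgroup.mem_zpowers _))
    rw [e3] at hh e1
    have hk' := (mul_mem_cancel_left (Subgroup.mem_inf.1 hn').1).1 hh
    have e2 : k x = c • x := n.injective (by rw [map_smul, hn'.2 x hx1]; exact e1)
    refine (mul_mem_cancel_left (inv_mem (hX _ hR (cent _ (by omega) (by omega)) k hk' hk))).1 (hX _ hQ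
      (cent _ (by omega) (by omega)) _ (LU_le (fun z φ g hg h => mem_OppA (Subgroup.mem_inf.2
      ⟨hg.mem_SLg, nx g (h x hx1)⟩) (hg.unip p))
        (mem_LU _ (F ∙ x) (Nat.add_sub_cancel' (Submodule.finrank_le _)) _ (mul_mem (inv_mem (OppA_le _ _ hk').1) hg)
          (mem_fix_span.2 ?_))) (mul_mem (inv_mem hk) hN))
    rintro _ rfl
    rw [LinearEquiv.mul_apply, ← hc, ← e2]; exact k.symm_apply_apply _
  · have hc : e.symm z ∈ Subgroup.center G := (QuotientGroup.eq_one_iff _).1 h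
    obtain ⟨k, hk⟩ := hS.pg ⟨z, hz⟩
    have key : ∀ v ≠ (0 : V), z.1 ∈ RadL (F ∙ v) := fun v hv => cent _ (by simp [finrank_span_singleton hv])
      (by simp [finrank_span_singleton hv]) z z.2 (fun g hg => by
        obtain ⟨φ, hφ⟩ := exists_isL_of_mem hv hg
        simpa using congrArg (fun u => (e u).1) (Subgroup.mem_center_iff.1 hc (e.symm ⟨g, hφ.mem_SLg⟩)))
      ⟨k, congrArg Subtype.val hk⟩
    refine Subtype.ext (LinearEquiv.ext fun v => ?_)
    rcases eq_or_ne v 0 with rfl | hv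
    · simp
    · exact (key v hv).1 v (Submodule.mem_span_singleton_self v)

end Cfsg.Agent.FusE
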